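import Cfsg.Agent.ChevM.Chk
import Cfsg.Agent.ChevM.Sig
import Cfsg.Agent.ChevU.OddA

set_option autoImplicit false
set_option linter.unusedSectionVars false
set_option linter.unusedVariables false

/-!
# The root groups of a finite overgroup: generalities (helper19)
-/

namespace Cfsg.Agent.ChevM

open Cfsg.Lie Matrix Subgroup Cfsg.Agent.ChevU Cfsg.Agent.Chev

variable {D : ChevalleyDatum} {K : Type*} [Field K] (R : RootFacts D) (G : Chev.Good D) (E : ChevGrp.DData D)
variable (M : Subgroup (GL D.Idx K))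

/-- the parameters of the root elements in `M` -/
def AS (s : ℕ) : AddSubgroup K where
  carrier := {t | xr R (elemOfGood G K) s t ∈ M}
  zero_mem' := by show xr R (elemOfGood G K) s 0 ∈ M; rw [xr_zero]; exact one_mem _
  add_mem' {a b} ha hb := by
    show xr R (elemOfGood G K) s (a + b) ∈ M
    rw [← xr_add]; exact mul_mem ha hb
  neg_mem' {a} ha := by
    show xr R (elemOfGood G K) s (-a) ∈ M
    rw [← xr_inv]; exact inv_mem ha

theorem mem_AS {s : ℕ} {t : K} : t ∈ AS R G M s ↔ xr R (elemOfGood G K) s t ∈ M := Iff.rfl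

theorem AS_finite [Finite ↥M] {s : ℕ} (hs : s < D.nroots) : Finite (AS R G M s) := by
  apply Finite.of_injective (fun t : AS R G M s => (⟨xr R (elemOfGood G K) s t.1, t.2⟩ : ↥M))
  intro a b h
  exact Subtype.ext (xr_injective R G hs (congrArg Subtype.val h))

theorem pm_mem (A : AddSubgroup K) {c : ℤ} (hc : c = 1 ∨ c = -1) {t : K} : (c : K) * t ∈ A ↔ t ∈ A := by
  rcases hc with rfl | rfl
  · simp
  · simp

theorem AS_refl {i : ℕ} (hi : i < D.rank) (hn : nU R (elemOfGood G K) (D.simple i) 1 ∈ M) {s : ℕ} (hs : s < D.nroots) :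
    AS R G M (D.reflectRoot i s) = AS R G M s := by
  ext t
  have h1 := ChevGrp.Inst.nn_xU (F := K) G hi hs t
  have e : ChevGrp.Inst.nn G K i = nU R (elemOfGood G K) (D.simple i) 1 := Units.ext rfl
  rw [e, ← xr_eq_xU (R := R) (H := G), ← xr_eq_xU (R := R) (H := G)] at h1
  have h2 : t ∈ AS R G M s ↔ ((Chev.eta D i s : ℤ) : K) * t ∈ AS R G M (D.reflectRoot i s) := by
    rw [mem_AS, mem_AS, ← h1]
    constructor
    · intro h; exact mul_mem (mul_mem hn h) (inv_mem hn)
    · intro h
      have := mul_mem (mul_mem (inv_mem hn) h) hn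
      have e : (nU R (elemOfGood G K) (D.simple i) 1)⁻¹ * (nU R (elemOfGood G K) (D.simple i) 1 * xr R (elemOfGood G K) s t *
        (nU R (elemOfGood G K) (D.simple i) 1)⁻¹) * nU R (elemOfGood G K) (D.simple i) 1 = xr R (elemOfGood G K) s t := by group
      rwa [e] at this
  rw [h2]
  rcases ChevGrp.Inst.eta_pm (F := K) G hi hs with h | h <;> rw [h]
  · rw [one_mul]
  · rw [neg_one_mul, neg_mem_iff]

/-- certificate: every root of `L` can be raised to `top` inside `L` -/
def tchk (D : ChevalleyDatum) (L : List ℕ) (top : ℕ) : Bool :=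
  L.all fun r => decide (r < D.nroots) && (r == top || (List.range D.rank).any fun i => decide (r < D.reflectRoot i r) &&
    L.contains (D.reflectRoot i r))

theorem AS_top (hn : ∀ i < D.rank, nU R (elemOfGood G K) (D.simple i) 1 ∈ M) {L : List ℕ} {top : ℕ} (h : tchk D L top = true) :
    ∀ r ∈ L, AS R G M r = AS R G M top := by
  have key : ∀ (j r : ℕ), D.nroots - r = j → r ∈ L → AS R G M r = AS R G M top := by
    intro j
    induction j using Nat.strong_induction_on with
    | _ j ih =>
      intro r hj hr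
      have h1 := h
      unfold tchk at h1
      rw [List.all_eq_true] at h1
      have h2 := h1 r hr
      simp only [Bool.and_eq_true, decide_eq_true_eq, Bool.or_eq_true, beq_iff_eq, List.any_eq_true, List.mem_range,
        List.contains_iff_mem] at h2
      obtain ⟨h3, h4 | ⟨i, hi, h5, h6⟩⟩ := h2
      · rw [h4]
      · rw [← AS_refl R G M hi (hn i hi) h3]
        exact ih (D.nroots - D.reflectRoot i r) (by omega) _ rfl h6
  exact fun r hr => key _ r rfl hr

/-- the commutator of two root elements of `M` -/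
theorem comm_mem {r s : ℕ} (hr : r < D.nroots) (hs : s < D.nroots) (hsr : s ≠ r) (hsn : s ≠ D.neg r) {T : List (ℕ × ℤ × ℕ × ℕ)}
    (hT : D.commTerms r s = T) {t u : K} (ht : t ∈ AS R G M r) (hu : u ∈ AS R G M s) :
    (T.map fun c => xr R (elemOfGood G K) c.1 ((c.2.1 : K) * (-t) ^ c.2.2.1 * u ^ c.2.2.2)).prod ∈ M := by
  have h1 := conj_xu R.tab (elemOfGood G K) hr hs hsr hsn t u
  have h2 : wu R.tab (elemOfGood G K) (D.commWord K r s t u) ∈ M := by
    have : wu R.tab (elemOfGood G K) (D.commWord K r s t u) = (xr R (elemOfGood G K) s u)⁻¹ *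
        ((xr R (elemOfGood G K) r t)⁻¹ * xr R (elemOfGood G K) s u * xr R (elemOfGood G K) r t) := by
      show _ = (xr R (elemOfGood G K) s u)⁻¹ * ((xu R.tab (elemOfGood G K) r t)⁻¹ * xu R.tab (elemOfGood G K) s u * xu R.tab (elemOfGood G K) r t)
      rw [h1]
      show _ = (xu R.tab (elemOfGood G K) s u)⁻¹ * _
      group
    rw [this]
    exact mul_mem (inv_mem hu) (mul_mem (mul_mem (inv_mem ht) hu) ht)
  unfold ChevalleyDatum.commWord at h2
  rw [hT] at h2
  unfold wu at h2
  rw [List.map_map] at h2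
  exact h2

/-- a finite multiplicatively closed additive subgroup containing one is a subfield -/
theorem exists_subfield (A : AddSubgroup K) [Finite A] (h1 : (1 : K) ∈ A) (hmul : ∀ t ∈ A, ∀ u ∈ A, t * u ∈ A) :
    ∃ 𝔽 : Subfield K, Finite 𝔽 ∧ ∀ t, t ∈ 𝔽 ↔ t ∈ A := by
  let 𝔽 : Subfield K :=
    { carrier := A
      mul_mem' := fun {a b} ha hb => hmul a ha b hb
      one_mem' := h1
      add_mem' := fun {a b} ha hb => add_mem ha hb
      zero_mem' := zero_mem A
      neg_mem' := fun {a} ha => neg_mem ha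
      inv_mem' := by
        intro a ha
        by_cases h0 : a = 0
        · rw [h0, _root_.inv_zero]; exact zero_mem A
        have hinj : Function.Injective (fun t : A => (⟨a * t.1, hmul a ha _ t.2⟩ : A)) := by
          intro x y h
          have := congrArg Subtype.val h
          exact Subtype.ext (mul_left_cancel₀ h0 this)
        have hsurj := Finite.surjective_of_injective hinj
        obtain ⟨u, hu⟩ := hsurj ⟨1, h1⟩
        have := congrArg Subtype.val hu
        have h2 : a * u.1 = 1 := this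
        rw [← eq_inv_of_mul_eq_one_right h2]
        exact u.2 }
  exact ⟨𝔽, (inferInstance : Finite A), fun t => Iff.rfl⟩

/-- finite multiplicatively closed sets are perfect -/
theorem pow_surj (p : ℕ) [Fact p.Prime] [CharP K p] (A : AddSubgroup K) [Finite A] (hp : ∀ t ∈ A, t ^ p ∈ A) :
    ∀ t ∈ A, ∃ u ∈ A, u ^ p = t := by
  intro t ht
  have hinj : Function.Injective (fun t : A => (⟨t.1 ^ p, hp _ t.2⟩ : A)) := by
    intro x y h
    have := congrArg Subtype.val h
    exact Subtype.ext (frobenius_inj K p this)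
  obtain ⟨u, hu⟩ := Finite.surjective_of_injective hinj ⟨t, ht⟩
  exact ⟨u.1, u.2, congrArg Subtype.val hu⟩

/-- what has to be proved about the root groups -/
def Uni : Prop := ∃ 𝔽 : Subfield K, Finite 𝔽 ∧ ∀ s < D.nroots, ∀ t : K, xr R (elemOfGood G K) s t ∈ M ↔ t ∈ 𝔽

theorem uni_of [Finite ↥M] (A : AddSubgroup K) (hA : ∀ s < D.nroots, AS R G M s = A) (hn : 0 < D.nroots) (h1 : (1 : K) ∈ A)
    (hmul : ∀ t ∈ A, ∀ u ∈ A, t * u ∈ A) : Uni R G M := by
  have : Finite A := by rw [← hA 0 hn]; exact AS_finite R G M hn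
  obtain ⟨𝔽, hf, h⟩ := exists_subfield A h1 hmul
  refine ⟨𝔽, hf, fun s hs t => ?_⟩
  rw [h t, ← hA s hs, mem_AS]

/-- multiplicative closure from a single commutator -/
theorem mul_closed {r s m : ℕ} {c : ℤ} (hr : r < D.nroots) (hs : s < D.nroots) (hsr : s ≠ r) (hsn : s ≠ D.neg r)
    (hT : D.commTerms r s = [(m, c, 1, 1)]) (hc : c = 1 ∨ c = -1) {A : AddSubgroup K} (h1 : AS R G M r = A) (h2 : AS R G M s = A)
    (h3 : AS R G M m = A) : ∀ t ∈ A, ∀ u ∈ A, t * u ∈ A := by
  intro t ht u hu
  have h4 := comm_mem R G M hr hs hsr hsn hT (t := t) (u := u) (by rw [h1]; exact ht) (by rw [h2]; exact hu)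
  simp only [List.map_cons, List.map_nil, List.prod_cons, List.prod_nil, mul_one, pow_one] at h4
  rw [← mem_AS R G M, h3, mul_assoc, pm_mem A hc, neg_mul, neg_mem_iff] at h4
  exact h4

end Cfsg.Agent.ChevM
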