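import Cfsg.Agent.ChevM.Ext

set_option autoImplicit false

namespace Cfsg.Agent.ChevM

open Cfsg.Lie

theorem lchk_D4 : lchk chevD4 [1, -1] [chevD4.nroots - 1] = true := by decide +kernel
theorem lchk_E6 : lchk chevE6 [1, -1] [chevE6.nroots - 1] = true := by decide +kernel
theorem lchk_E7 : lchk chevE7 [1, -1] [chevE7.nroots - 1] = true := by decide +kernel
theorem lchk_E8 : lchk chevE8 [1, -1] [chevE8.nroots - 1] = true := by decide +kernel
theorem lchk_F4 : lchk chevF4 [1, -1, 2, -2] [chevF4.nroots - 1] = true := by decide +kernel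
theorem lchk_F4' : lchk chevF4 [1, -1] [chevF4.nroots - 1, 44] = true := by decide +kernel
theorem lchk_B2 : lchk chevB2 [1, -1, 2, -2] [chevB2.nroots - 1] = true := by decide +kernel
theorem lchk_B2' : lchk chevB2 [1, -1] [chevB2.nroots - 1, 6] = true := by decide +kernel
theorem lchk_G2 : lchk chevG2 [1, -1, 2, -2, 3, -3] [chevG2.nroots - 1] = true := by decide +kernel
theorem lchk_G2_2 : lchk chevG2 [1, -1, 3, -3] [chevG2.nroots - 1] = true := by decide +kernel
theorem lchk_G2_3 : lchk chevG2 [1, -1, 2, -2] [chevG2.nroots - 1, 9] = true := by decide +kernel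

end Cfsg.Agent.ChevM
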