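import Cfsg.Agent.ChevM.Loc2
import Cfsg.Agent.ChevU.All

set_option autoImplicit false
set_option linter.unusedSectionVars false
set_option linter.unusedVariables false

/-!
# Checks for the end of the proof (helper19)
-/

namespace Cfsg.Agent.ChevM

open Cfsg.Lie Matrix Subgroup Cfsg.Agent.ChevU Cfsg.Agent.Chev

theorem stab_D4 : chkStab chevD4 (List.range chevD4.nroots) = true := by decide +kernel
theorem stab_E6 : chkStab chevE6 (List.range chevE6.nroots) = true := by decide +kernel
theorem stab_E7 : chkStab chevE7 (List.range chevE7.nroots) = true := by decide +kernel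
theorem stab_E8 : chkStab chevE8 (List.range chevE8.nroots) = true := by decide +kernel
theorem stab_B2 : chkStab chevB2 [0, 3, 4, 7] = true := by decide +kernel
theorem stab_F4 : chkStab chevF4 [0, 1, 2, 4, 5, 6, 15, 16, 17, 21, 22, 23, 24, 25, 26, 30, 31, 32, 41, 42, 43, 45, 46, 47] = true := by decide +kernel
theorem stab_G2 : chkStab chevG2 [0, 1, 5, 6, 10, 11] = true := by decide +kernel

theorem ochk_D4 : ochk chevD4 (List.range chevD4.nroots) = true := by decide +kernel
theorem ochk_E6 : ochk chevE6 (List.range chevE6.nroots) = true := by decide +kernel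
theorem ochk_E7 : ochk chevE7 (List.range chevE7.nroots) = true := by decide +kernel
theorem ochk_E8 : ochk chevE8 (List.range chevE8.nroots) = true := by decide +kernel
theorem ochk_B2 : ochk chevB2 [0, 3, 4, 7] = true := by decide +kernel
theorem ochk_F4 : ochk chevF4 [0, 1, 2, 4, 5, 6, 15, 16, 17, 21, 22, 23, 24, 25, 26, 30, 31, 32, 41, 42, 43, 45, 46, 47] = true := by decide +kernel
theorem ochk_G2 : ochk chevG2 [0, 1, 5, 6, 10, 11] = true := by decide +kernel

theorem nchk_D4 : nchk chevD4 12 = true := by decide +kernel
theorem nchk_E6 : nchk chevE6 36 = true := by decide +kernel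
theorem nchk_E7 : nchk chevE7 63 = true := by decide +kernel
theorem nchk_E8 : nchk chevE8 121 = true := by decide +kernel

end Cfsg.Agent.ChevM
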