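import Cfsg.Agent.ChevM.Main

set_option autoImplicit false
set_option linter.unusedSectionVars false
set_option linter.unusedVariables false

/-!
# Finite subfields (helper19)
-/

namespace Cfsg.Agent.ChevM

open Polynomial

variable {K : Type*} [Field K]

/-- elements of a finite subfield -/
theorem mem_iff_pow (𝔽 : Subfield K) [Finite 𝔽] (t : K) : t ∈ 𝔽 ↔ t ^ Nat.card 𝔽 = t := by
  classical
  have : Fintype 𝔽 := Fintype.ofFinite 𝔽
  have hcard : 1 < Nat.card 𝔽 := by rw [Nat.card_eq_fintype_card]; exact Fintype.one_lt_card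
  constructor
  · intro ht
    have := FiniteField.pow_card (⟨t, ht⟩ : 𝔽)
    rw [← Nat.card_eq_fintype_card] at this
    exact congrArg Subtype.val this
  · intro ht
    by_contra hne
    have hfin : (𝔽 : Set K).Finite := Set.toFinite _
    have h1 : (insert t hfin.toFinset).card = Nat.card 𝔽 + 1 := by
      rw [Finset.card_insert_of_notMem (by rw [Set.Finite.mem_toFinset]; exact hne)]
      congr 1
      exact (Nat.card_eq_card_finite_toFinset hfin).symm
    have h2 : insert t hfin.toFinset ⊆ (X ^ Nat.card 𝔽 - X : K[X]).roots.toFinset := by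
      intro s hs
      rw [Multiset.mem_toFinset, mem_roots (FiniteField.X_pow_card_sub_X_ne_zero K hcard), IsRoot.def, eval_sub, eval_pow, eval_X, sub_eq_zero]
      rcases Finset.mem_insert.1 hs with rfl | hs
      · exact ht
      · rw [Set.Finite.mem_toFinset] at hs
        have := FiniteField.pow_card (⟨s, hs⟩ : 𝔽)
        rw [← Nat.card_eq_fintype_card] at this
        exact congrArg Subtype.val this
    have h3 := Finset.card_le_card h2
    have h4 := (X ^ Nat.card 𝔽 - X : K[X]).roots.toFinset_card_le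
    have h5 := (X ^ Nat.card 𝔽 - X : K[X]).card_roots'
    rw [FiniteField.X_pow_card_sub_X_natDegree_eq K hcard] at h5
    omega

/-- the order of a finite subfield -/
theorem card_subfield (p : ℕ) [hp : Fact p.Prime] [CharP K p] (𝔽 : Subfield K) [Finite 𝔽] : ∃ e, 1 ≤ e ∧ Nat.card 𝔽 = p ^ e := by
  have : Fintype 𝔽 := Fintype.ofFinite 𝔽
  have : CharP 𝔽 p := (Subfield.charP 𝔽 p)
  obtain ⟨n, -, hn⟩ := FiniteField.card 𝔽 p
  exact ⟨n, n.2, by rw [Nat.card_eq_fintype_card, hn]⟩

/-- the fixed field of the `p ^ a`-power map -/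
def fixF (K : Type*) [Field K] (p : ℕ) [Fact p.Prime] [CharP K p] (a : ℕ) : Subfield K :=
  (iterateFrobenius K p a).eqLocusField (RingHom.id K)

theorem mem_fixF (p : ℕ) [Fact p.Prime] [CharP K p] (a : ℕ) (t : K) : t ∈ fixF K p a ↔ t ^ p ^ a = t := by
  unfold fixF
  show iterateFrobenius K p a t = t ↔ _
  rw [iterateFrobenius_def]

theorem card_fixF (p : ℕ) [hp : Fact p.Prime] [CharP K p] {a : ℕ} (ha : 1 ≤ a) (hs : (X ^ p ^ a - X : K[X]).Splits) :
    Nat.card (fixF K p a) = p ^ a ∧ Finite (fixF K p a) := by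
  classical
  have h1 : 1 < p ^ a := Nat.one_lt_pow (by omega) hp.out.one_lt
  have hne := FiniteField.X_pow_card_sub_X_ne_zero K h1
  have h2 := card_rootSet_eq_natDegree (F := K) (K := K) (galois_poly_separable p (p ^ a) (dvd_pow_self p (by omega)))
    (by rw [Algebra.algebraMap_self, map_id]; exact hs)
  rw [FiniteField.X_pow_card_sub_X_natDegree_eq K h1] at h2
  have e : ((X ^ p ^ a - X : K[X]).rootSet K) = (fixF K p a : Set K) := by
    ext t
    rw [mem_rootSet]
    constructor
    · rintro ⟨-, h⟩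
      rw [SetLike.mem_coe, mem_fixF]
      simpa [sub_eq_zero] using h
    · intro h
      rw [SetLike.mem_coe, mem_fixF] at h
      exact ⟨hne, by simpa [sub_eq_zero] using h⟩
  have hfin : Finite (fixF K p a) := by
    have : Finite ((X ^ p ^ a - X : K[X]).rootSet K) := inferInstance
    rw [e] at this
    exact this
  refine ⟨?_, hfin⟩
  rw [← h2, ← Nat.card_eq_fintype_card, e]
  rfl

theorem card_pow_of_le {𝔽 𝔾 : Subfield K} (h : 𝔽 ≤ 𝔾) [Finite 𝔾] : ∃ r, 1 ≤ r ∧ Nat.card 𝔾 = Nat.card 𝔽 ^ r := by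
  have : Finite 𝔽 := Finite.of_injective (Subfield.inclusion h) (Subfield.inclusion h).injective
  have : Fintype 𝔽 := Fintype.ofFinite 𝔽
  have : Fintype 𝔾 := Fintype.ofFinite 𝔾
  let _ := (Subfield.inclusion h).toAlgebra
  have h1 := Module.card_eq_pow_finrank (K := 𝔽) (V := 𝔾)
  refine ⟨Module.finrank 𝔽 𝔾, Module.finrank_pos, ?_⟩
  rw [Nat.card_eq_fintype_card, Nat.card_eq_fintype_card, h1]

end Cfsg.Agent.ChevM
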