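import Cfsg.Agent.ChevM.Odd

set_option autoImplicit false
set_option linter.unusedSectionVars false
set_option linter.unusedVariables false

/-!
# The end of the proof in odd characteristic, part two (helper19)
-/

namespace Cfsg.Agent.ChevM

open Cfsg.Lie Matrix Subgroup Cfsg.Agent.ChevU Cfsg.Agent.Chev

variable {D : ChevalleyDatum} {K : Type*} [Field K] (R : RootFacts D) (G : Chev.Good D) (E : ChevGrp.DData D)
variable {φ : K →+* K} {𝔽 : Subfield K} {M : Subgroup (GL D.Idx K)}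

theorem dg_neg_one_mul' (g : SpecialLinearGroup (Fin 2) K) : dg (-1) * g = g * dg (-1) := by
  apply sl_ext <;> simp [sl_mul00, sl_mul01, sl_mul10, sl_mul11, dg00, dg01, dg10, dg11]

include E in
/-- elements of `⟨X_h, X_{-h}⟩ ∩ M` are rational (`h` the highest root) -/
theorem Sit.rank1 (S : Sit R G φ 𝔽 M) (hc : Conn D) (hn0 : 0 < D.nroots) (hrk : 2 ≤ D.rank) {d lam d' : K}
    (hm : xr R (elemOfGood G K) (D.nroots - 1) d * xr R (elemOfGood G K) 0 lam * xr R (elemOfGood G K) (D.nroots - 1) d' ∈ M) :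
    sg D φ (xr R (elemOfGood G K) (D.nroots - 1) d * xr R (elemOfGood G K) 0 lam * xr R (elemOfGood G K) (D.nroots - 1) d') =
      xr R (elemOfGood G K) (D.nroots - 1) d * xr R (elemOfGood G K) 0 lam * xr R (elemOfGood G K) (D.nroots - 1) d' := by
  have hn := R.n_eq
  set s := xr R (elemOfGood G K) (D.nroots - 1) d * xr R (elemOfGood G K) 0 lam * xr R (elemOfGood G K) (D.nroots - 1) d' with hs
  obtain ⟨u, hu, i, hi⟩ := E.rp.wsys.exists_conj_p (⟨D.nroots - 1, by omega⟩ : Fin D.nroots)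
  obtain ⟨L, hL⟩ := E.rp.wsys.exists_wd (inv_mem hu)
  have hact : (ChevGrp.chev E G K).Act ((ChevGrp.chev E G K).nd L) (E.rp.wsys.wd L) := ChevGrp.RGrp.act_nd L
  set n := (ChevGrp.chev E G K).nd L with hnd
  have hnL : n ∈ LF R G 𝔽 := nd_LF R G E 𝔽 L
  have hw1 : (E.rp.wsys.wd L) (⟨D.nroots - 1, by omega⟩ : Fin D.nroots) = E.rp.wsys.p i := by
    rw [hL, Equiv.Perm.inv_eq_iff_eq]; exact hi.symm
  have hneg0 : E.rp.wsys.neg (⟨D.nroots - 1, by omega⟩ : Fin D.nroots) = ⟨0, by omega⟩ := by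
    apply Fin.ext
    have h1 : ((E.rp.neg (⟨D.nroots - 1, by omega⟩ : Fin D.nroots) : Fin D.nroots) : ℕ) = D.neg (D.nroots - 1) := E.hneg _
    show ((E.rp.neg (⟨D.nroots - 1, by omega⟩ : Fin D.nroots) : Fin D.nroots) : ℕ) = 0
    rw [h1, R.tab.neg_val (by omega)]; omega
  have hw0 : (E.rp.wsys.wd L) (⟨0, by omega⟩ : Fin D.nroots) = E.rp.wsys.neg (E.rp.wsys.p i) := by
    rw [← hneg0, E.rp.wsys.W_neg (E.rp.wsys.wd_mem L), hw1]
  -- all pieces lie in a proper parabolic subgroup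
  have hpi : ((E.rp.wsys.p i : Fin D.nroots) : ℕ) = D.simple i := p_val E i
  have hni : ((E.rp.wsys.neg (E.rp.wsys.p i) : Fin D.nroots) : ℕ) = D.neg (D.simple i) := by
    have h1 : ((E.rp.neg (E.rp.wsys.p i) : Fin D.nroots) : ℕ) = D.neg (E.rp.wsys.p i) := E.hneg _
    show ((E.rp.neg (E.rp.wsys.p i) : Fin D.nroots) : ℕ) = _
    rw [h1, hpi]
  have hP1 : ∀ t : K, xr R (elemOfGood G K) (D.simple i) t ∈ D.parabolicSubgroup K {(i : ℕ)} := by
    intro t
    refine mem_sup_left (mem_sup_left ?_)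
    rw [pos_V R]
    exact xr_V R G (Nat.zero_le _) ((R.pos_iff _ (R.simple_lt i i.2)).1 (out_simple R i.2 (J := (∅ : Set ℕ)) (by simp)).1) (R.simple_lt i i.2) t
  have hP2 : ∀ t : K, xr R (elemOfGood G K) (D.neg (D.simple i)) t ∈ D.parabolicSubgroup K {(i : ℕ)} := by
    intro t
    obtain ⟨c, hc1, -⟩ := conj_act R G E (ChevGrp.RGrp.act_nd (R := ChevGrp.chev E G K) [i]) (E.rp.wsys.neg (E.rp.wsys.p i)) t
    have h2 : (E.rp.wsys.wd [i]) (E.rp.wsys.neg (E.rp.wsys.p i)) = E.rp.wsys.p i := by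
      rw [E.rp.wsys.W_neg (E.rp.wsys.wd_mem [i])]
      have h3 : (E.rp.wsys.wd [i]) (E.rp.wsys.p i) = E.rp.wsys.neg (E.rp.wsys.p i) := by
        show (E.rp.wsys.w i * 1) (E.rp.wsys.p i) = _
        rw [mul_one]; exact E.rp.wsys.w_p i
      rw [h3, E.rp.wsys.neg_neg]
    rw [h2, hpi, hni] at hc1
    have hnP : (ChevGrp.chev E G K).nd [i] ∈ D.parabolicSubgroup K {(i : ℕ)} := by
      rw [ChevGrp.RGrp.nd_cons, ChevGrp.RGrp.nd_nil, mul_one, nn_eq R G E]
      exact mem_sup_right (subset_closure ⟨i, rfl, i.2, coe_nU R _ _ _⟩)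
    have h4 : xr R (elemOfGood G K) (D.neg (D.simple i)) t = ((ChevGrp.chev E G K).nd [i])⁻¹ *
      xr R (elemOfGood G K) (D.simple i) c * (ChevGrp.chev E G K).nd [i] := by rw [← hc1]; group
    rw [h4]
    exact mul_mem (mul_mem (inv_mem hnP) (hP1 c)) hnP
  have hP : ∀ (t : K) , n * xr R (elemOfGood G K) (D.nroots - 1) t * n⁻¹ ∈ D.parabolicSubgroup K {(i : ℕ)} := by
    intro t
    obtain ⟨c, hc1, -⟩ := conj_act R G E hact ⟨D.nroots - 1, by omega⟩ t
    rw [hw1, hpi] at hc1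
    rw [hc1]; exact hP1 c
  have hP' : ∀ (t : K) , n * xr R (elemOfGood G K) 0 t * n⁻¹ ∈ D.parabolicSubgroup K {(i : ℕ)} := by
    intro t
    obtain ⟨c, hc1, -⟩ := conj_act R G E hact ⟨0, by omega⟩ t
    rw [hw0, hni] at hc1
    rw [hc1]; exact hP2 c
  have h1 : n * s * n⁻¹ ∈ D.parabolicSubgroup K {(i : ℕ)} := by
    have : n * s * n⁻¹ = (n * xr R (elemOfGood G K) (D.nroots - 1) d * n⁻¹) * (n * xr R (elemOfGood G K) 0 lam * n⁻¹) *
      (n * xr R (elemOfGood G K) (D.nroots - 1) d' * n⁻¹) := by rw [hs]; group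
    rw [this]
    exact mul_mem (mul_mem (hP _) (hP' _)) (hP _)
  have hnM := S.L hnL
  have hnφ := LF_fix R G 𝔽 φ S.hf hnL
  have h2 := S.par R G E hc (J := {(i : ℕ)}) (by
    by_cases h0 : (i : ℕ) = 0
    · exact ⟨1, by omega, by rw [Set.mem_singleton_iff]; omega⟩
    · exact ⟨0, by omega, by rw [Set.mem_singleton_iff]; omega⟩) (mul_mem (mul_mem hnM hm) (inv_mem hnM)) h1
  rw [map_mul, map_mul, map_inv, hnφ] at h2
  exact mul_left_cancel (mul_right_cancel h2)

include E in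
theorem odd_end (S : Sit R G φ 𝔽 M) (hc : Conn D) (hn0 : 0 < D.nroots) (hrk : 2 ≤ D.rank) [Finite 𝔽] (p : ℕ) [hp' : Fact p.Prime] [CharP K p]
    (hp : p ≠ 2) [Finite ↥M] {L : List ℕ} (hL : chkStab D L = true) (hL1 : D.nroots - 1 ∈ L) (hchk : ochk D L = true) :
    ∀ m ∈ M, sg D φ m = m := by
  intro m hm
  have hn := R.n_eq
  have hdiv : D.nroots / 2 = R.half := by omega
  have hh : R.half ≤ D.nroots - 1 := by omega
  have h20 : (2 : K) ≠ 0 := by
    intro h
    have h3 : ((2 : ℕ) : K) = 0 := by exact_mod_cast h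
    rw [CharP.cast_eq_zero_iff K p] at h3
    exact hp ((Nat.prime_dvd_prime_iff_eq hp'.out Nat.prime_two).1 h3)
  set x := xr R (elemOfGood G K) (D.nroots - 1) 1 with hx
  have hxL : x ∈ LF R G 𝔽 := xr_LF R G 𝔽 (by omega) (one_mem _)
  have hxU : x ∈ UF R G 𝔽 0 := xr_UF R G 𝔽 (Nat.zero_le _) hh (by omega) (one_mem _)
  have hx1 : x ≠ 1 := xr_ne_one R G (by omega) one_ne_zero
  have hxp : x ^ p ^ 1 = 1 := by rw [pow_one]; exact xr_pow_char R G p _ _
  have hxM : x ∈ M := S.L hxL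
  refine S.se R G E hc p hx1 hxU (fun y hy => high_central R G hn0 (UA_le_V R G _ 0 hy) 1) hm ?_
  set y := m * x * m⁻¹ with hy
  have hyM : y ∈ M := mul_mem (mul_mem hm hxM) (inv_mem hm)
  have hcent : ∀ g ∈ M, g * x = x * g → sg D φ g = g := fun g hg h =>
    S.cent R G E hc p hx1 hxM (LF_fix R G 𝔽 φ S.hf hxL) (k := 1) hxp hg h
  obtain ⟨u, hu, w, hw, c, hc0, e⟩ := conj_high R G E hn0 (S.MG hm) (one_ne_zero (α := K))
  rw [← hx, ← hy] at e
  have hxu : x = u * x * u⁻¹ := by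
    have := high_central R G hn0 hu 1
    rw [← hx] at this
    rw [this, mul_inv_cancel_right]
  have hsL := mem_of_stab E hL hw hL1
  set s := nf w (D.nroots - 1) with hs
  have hsn : s < D.nroots := by
    rw [hs]; unfold nf
    rw [dif_pos (by omega)]
    exact Fin.is_lt _
  have hck := hchk
  unfold ochk at hck
  rw [hdiv, Bool.and_eq_true, List.all_eq_true, List.all_eq_true] at hck
  have h3 := hck.1 s hsL
  rw [Bool.or_eq_true, Bool.or_eq_true, beq_iff_eq, beq_iff_eq] at h3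
  by_cases hs0 : s = 0
  swap
  · by_cases hsn1 : s = D.nroots - 1
    · apply hcent y hyM
      rw [e, hsn1]
      nth_rewrite 2 [hxu]
      nth_rewrite 1 [hxu]
      rw [hx]
      calc u * xr R (elemOfGood G K) (D.nroots - 1) c * u⁻¹ * (u * xr R (elemOfGood G K) (D.nroots - 1) 1 * u⁻¹)
          = u * (xr R (elemOfGood G K) (D.nroots - 1) c * xr R (elemOfGood G K) (D.nroots - 1) 1) * u⁻¹ := by group
        _ = u * (xr R (elemOfGood G K) (D.nroots - 1) 1 * xr R (elemOfGood G K) (D.nroots - 1) c) * u⁻¹ := by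
          rw [xr_add, xr_add, add_comm]
        _ = _ := by group
    have hneg : s ≠ D.neg (D.nroots - 1) := by rw [R.tab.neg_val (by omega)]; omega
    have h3 := h3.resolve_left (by tauto)
    split at h3
    · rename_i hq
      apply hcent y hyM
      have h4 := xr_comm R G (r := D.nroots - 1) (s := s) (by omega) hsn hsn1 hneg hq 1 c
      rw [← hx] at h4
      rw [e]
      nth_rewrite 1 [hxu]
      nth_rewrite 2 [hxu]
      calc u * xr R (elemOfGood G K) s c * u⁻¹ * (u * x * u⁻¹)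
          = u * (xr R (elemOfGood G K) s c * x) * u⁻¹ := by group
        _ = u * (x * xr R (elemOfGood G K) s c) * u⁻¹ := by rw [h4]
        _ = _ := by group
    · rename_i q hq
      simp only [Bool.and_eq_true, decide_eq_true_eq, beq_iff_eq, Bool.or_eq_true, bne_iff_ne, List.isEmpty_iff] at h3
      obtain ⟨⟨⟨⟨⟨⟨⟨h6, h7⟩, h8⟩, h4⟩, h5⟩, h9⟩, h10⟩, h11⟩ := h3
      obtain ⟨mm, c', i1, j1⟩ := q
      simp only at h4 h5 h6 h7 h8 h9 h10 h11
      subst h6 h7
      have hc'0 : (c' : K) ≠ 0 := by rcases h8 with rfl | rfl <;> simp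
      set d : K := (c' : K) * (-1) * c with hd
      have hd0 : d ≠ 0 := mul_ne_zero (mul_ne_zero hc'0 (neg_ne_zero.2 one_ne_zero)) hc0
      have h12 : cm (xr R (elemOfGood G K) s c) x = xr R (elemOfGood G K) mm d := by
        have h13 := conj_xu R.tab (elemOfGood G K) (r := D.nroots - 1) (s := s) (by omega) hsn hsn1 hneg 1 c
        unfold cm
        rw [hx, h13, inv_mul_cancel_left]
        unfold ChevalleyDatum.commWord
        rw [hq]
        simp [wu, hd]
      set z := cm y x with hz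
      have hzM : z ∈ M := mul_mem (inv_mem hyM) (mul_mem (mul_mem (inv_mem hxM) hyM) hxM)
      have hzu : z = u * xr R (elemOfGood G K) mm d * u⁻¹ := by
        rw [hz, e, ← h12]
        unfold cm
        nth_rewrite 1 [hxu]
        nth_rewrite 2 [hxu]
        group
      have hz1 : z ≠ 1 := by
        intro h
        rw [hzu] at h
        apply xr_ne_one R G h5 hd0
        have : xr R (elemOfGood G K) mm d = u⁻¹ * (u * xr R (elemOfGood G K) mm d * u⁻¹) * u := by group
        rw [this, h]; group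
      have hzp : z ^ p ^ 1 = 1 := by
        rw [pow_one, hzu, conj_pow, xr_pow_char R G p]; group
      have hzx : z * x = x * z := by
        rw [hzu]
        nth_rewrite 1 [hxu]
        nth_rewrite 2 [hxu]
        have h13 := high_central R G hn0 (xr_V R G (k := 0) (Nat.zero_le _) (by omega : R.half ≤ mm) h5 d) 1
        rw [← hx] at h13
        calc u * xr R (elemOfGood G K) mm d * u⁻¹ * (u * x * u⁻¹)
            = u * (xr R (elemOfGood G K) mm d * x) * u⁻¹ := by group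
          _ = u * (x * xr R (elemOfGood G K) mm d) * u⁻¹ := by rw [h13]
          _ = _ := by group
      have hzφ := hcent z hzM hzx
      apply S.cent R G E hc p hz1 hzM hzφ (k := 1) hzp hyM
      have h14 := xr_comm R G (r := mm) (s := s) h5 hsn (Ne.symm h9) (by
        rw [R.tab.neg_val hsn] at h10
        rw [R.tab.neg_val h5]
        omega) h11 d c
      rw [hzu, e]
      calc u * xr R (elemOfGood G K) s c * u⁻¹ * (u * xr R (elemOfGood G K) mm d * u⁻¹)
          = u * (xr R (elemOfGood G K) s c * xr R (elemOfGood G K) mm d) * u⁻¹ := by group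
        _ = u * (xr R (elemOfGood G K) mm d * xr R (elemOfGood G K) s c) * u⁻¹ := by rw [h14]
        _ = _ := by group
    · exact absurd h3 (by simp)
  · -- opposite root elements
    rw [hs0] at e
    set ρ : Fin D.nroots := ⟨D.nroots - 1, by omega⟩ with hρ
    have hneg0 : D.neg (ρ : ℕ) = 0 := by
      show D.neg (D.nroots - 1) = 0
      rw [R.tab.neg_val (by omega)]; omega
    set Φ := phi (F := K) R G ρ with hΦ
    have hΦX : ∀ t : K, Φ (SL2Sys.X t) = xr R (elemOfGood G K) (D.nroots - 1) t := fun t => fphi_X R G ρ t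
    have hΦY : ∀ t : K, Φ (SL2Sys.Y t) = xr R (elemOfGood G K) 0 t := fun t => by rw [hΦ, fphi_Y R G ρ t, hneg0]
    have hx' : x = u * Φ (SL2Sys.X 1) * u⁻¹ := by rw [hΦX, ← hx]; exact hxu
    have hy' : y = u * Φ (SL2Sys.Y c) * u⁻¹ := by rw [hΦY]; exact e
    -- finite order
    obtain ⟨N, hN, hNe⟩ : ∃ N : ℕ, 0 < N ∧ (x * y) ^ N = 1 := by
      have := (isOfFinOrder_of_finite (⟨x * y, mul_mem hxM hyM⟩ : ↥M))
      rw [isOfFinOrder_iff_pow_eq_one] at this
      obtain ⟨N, hN, h⟩ := this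
      exact ⟨N, hN, congrArg Subtype.val h⟩
    have h5 : Φ ((SL2Sys.X 1 * SL2Sys.Y c) ^ N) = 1 := by
      have h6 : x * y = u * Φ (SL2Sys.X 1 * SL2Sys.Y c) * u⁻¹ := by rw [hx', hy', map_mul]; group
      rw [h6, conj_pow, mul_inv_eq_one] at hNe
      rw [map_pow]
      exact mul_left_cancel (hNe.trans (mul_one u).symm)
    have h6 := phi_ker R G E ρ h5
    rw [← pow_add] at h6
    have h7 := sl_neg_mem p hp hc0 (by omega) h6
    -- the torus element
    set h := hU R (elemOfGood G K) (D.nroots - 1) (-1) with hh'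
    have hΦd : Φ (dg (-1 : Kˣ)) = h := by
      have := phi_dg' (K := K) R G ρ (-1 : Kˣ)
      rw [hΦ, this]
      simp [hh', hρ]
    have h8 : u * h * u⁻¹ ∈ M := by
      have h9 : closure {(SL2Sys.X 1 : SpecialLinearGroup (Fin 2) K), SL2Sys.Y c} ≤ M.comap ((MulAut.conj u).toMonoidHom.comp Φ) := by
        rw [closure_le]
        rintro g (rfl | rfl)
        · show u * Φ (SL2Sys.X 1) * u⁻¹ ∈ M
          rw [← hx']; exact hxM
        · show u * Φ (SL2Sys.Y c) * u⁻¹ ∈ M
          rw [← hy']; exact hyM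
      have h10 : u * Φ (dg (-1)) * u⁻¹ ∈ M := h9 h7
      rwa [hΦd] at h10
    have h9 := hcent _ h8 (by
      rw [hx', ← hΦd]
      have h10 : Φ (dg (-1)) * Φ (SL2Sys.X 1) = Φ (SL2Sys.X 1) * Φ (dg (-1)) := by
        rw [← map_mul, ← map_mul, dg_neg_one_mul']
      calc u * Φ (dg (-1)) * u⁻¹ * (u * Φ (SL2Sys.X 1) * u⁻¹) = u * (Φ (dg (-1)) * Φ (SL2Sys.X 1)) * u⁻¹ := by group
        _ = _ := by rw [h10]; group)
    obtain ⟨q, hq, d, hqd⟩ := strip R G S h20 hchk hn0 (D.nroots - R.half) R.half (by omega) le_rfl u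
      (by have := V_half (F := K) R.tab (k := R.half) le_rfl; rw [this]; exact hu) h9
    have hqM := S.L hq
    have h10 := hqd c
    rw [← e] at h10
    have h11 : xr R (elemOfGood G K) (D.nroots - 1) d * xr R (elemOfGood G K) 0 c * xr R (elemOfGood G K) (D.nroots - 1) (-d) ∈ M := by
      have : xr R (elemOfGood G K) (D.nroots - 1) d * xr R (elemOfGood G K) 0 c * xr R (elemOfGood G K) (D.nroots - 1) (-d) = q⁻¹ * y * q := by
        rw [h10]; group
      rw [this]; exact mul_mem (mul_mem (inv_mem hqM) hyM) hqM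
    have h12 := S.rank1 R G E hc hn0 hrk h11
    rw [h10, map_mul, map_mul, map_inv, LF_fix R G 𝔽 φ S.hf hq, h12]

end Cfsg.Agent.ChevM
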