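import Cfsg.Agent.ChevM.UniG2
import Cfsg.Agent.ChevM.Odd2

set_option autoImplicit false
set_option linter.unusedSectionVars false
set_option linter.unusedVariables false

/-!
# The remaining coordinates (helper19)
-/

namespace Cfsg.Agent.ChevM

open Cfsg.Lie Matrix Subgroup Cfsg.Agent.ChevU Cfsg.Agent.Chev

section gen

variable {D : ChevalleyDatum} {K : Type*} [Field K] (R : RootFacts D) (G : Chev.Good D)
variable {φ : K →+* K} {𝔽 : Subfield K} {M : Subgroup (GL D.Idx K)}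
variable (hM : ∀ s < D.nroots, ∀ t : K, xr R (elemOfGood G K) s t ∈ M ↔ t ∈ 𝔽)

include hM in
theorem LF_le : LF R G 𝔽 ≤ M := by
  rw [LF, closure_le]
  rintro g ⟨s, t, hs, ht, rfl⟩
  exact (hM s hs t).2 ht

theorem cm_cj {r s : ℕ} (hr : r < D.nroots) (hs : s < D.nroots) (hsr : s ≠ r) (hsn : s ≠ D.neg r) {T : List (ℕ × ℤ × ℕ × ℕ)}
    (hT : D.commTerms r s = T) (t u : K) :
    cm (xr R (elemOfGood G K) s u) (xr R (elemOfGood G K) r t) =
      (T.map fun c => xr R (elemOfGood G K) c.1 ((c.2.1 : K) * (-t) ^ c.2.2.1 * u ^ c.2.2.2)).prod := by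
  unfold cm
  rw [cj R G hr hs hsr hsn hT, inv_mul_cancel_left]

theorem V_n {v : GL D.Idx K} (hv : v ∈ V R.tab (F := K) (D.nroots - 1 + 1)) (hn : 0 < D.nroots) : v = 1 := by
  have h2 : D.nroots - 1 + 1 = D.nroots := by omega
  rw [h2, V_top R.tab le_rfl, mem_bot] at hv
  exact hv

include hM in
theorem loc_top {s m : ℕ} (hT : D.commTerms s (D.nroots - 1) = [(m, 1, 1, 1)]) (hs : s < D.nroots) (hm : m < D.nroots)
    (hsr : D.nroots - 1 ≠ s) (hsn : D.nroots - 1 ≠ D.neg s) (a : K) (v : GL D.Idx K) (hv : v ∈ V R.tab (F := K) (D.nroots - 1 + 1))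
    (hQ : QQ R G 𝔽 M (xr R (elemOfGood G K) (D.nroots - 1) a * v)) : a ∈ 𝔽 := by
  rw [V_n R hv (by omega), mul_one] at hQ
  have h1 := hQ.cm R G 𝔽 (LF_le R G hM) (xr_LF R G 𝔽 hs (one_mem 𝔽))
  rw [cm_cj R G hs (by omega) hsr hsn hT] at h1
  simp only [List.map_cons, List.map_nil, List.prod_cons, List.prod_nil, mul_one, pow_one] at h1
  have h2 := (hM m hm _).1 h1
  have e : a = -(((1 : ℤ) : K) * -1 * a) := by push_cast; ring
  rw [e]; exact neg_mem h2

include hM in
/-- the situation, generic case -/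
theorem sit_gen (hf : ∀ t, t ∈ 𝔽 ↔ φ t = t) (MG : M ≤ D.group K) {cs : List ℤ} (h : lchk D cs [D.nroots - 1] = true)
    (hcs : ∀ c ∈ cs, (c : K) ≠ 0) {s m : ℕ} (hT : D.commTerms s (D.nroots - 1) = [(m, 1, 1, 1)]) (hs : s < D.nroots) (hm : m < D.nroots)
    (hsr : D.nroots - 1 ≠ s) (hsn : D.nroots - 1 ≠ D.neg s) : Sit R G φ 𝔽 M := by
  have hL := LF_le R G hM
  have hE := ext1 R G 𝔽 hM hL (ex := []) h hcs (by intro k hk; exact absurd hk (by simp))
  refine ⟨hf, MG, hL, hE, ext2 R G 𝔽 hL hE (ex := [D.nroots - 1]) h hcs ?_⟩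
  intro k hk hk1 hkn a v hv hQ
  rw [List.mem_singleton] at hk
  subst hk
  exact loc_top R G hM hT hs hm hsr hsn a v hv hQ

end gen

theorem cast_ne (K : Type*) [Field K] (p : ℕ) [hp : Fact p.Prime] [CharP K p] {c : ℤ} (h : ¬ (p : ℤ) ∣ c) : (c : K) ≠ 0 := by
  rw [ne_eq, CharP.intCast_eq_zero_iff K p]
  exact h

/-! ### `F₄` in characteristic two -/

section F4

variable {K : Type*} [Field K] [CharP K 2] (R : RootFacts chevF4) (G : Chev.Good chevF4)
variable {φ : K →+* K} {𝔽 : Subfield K} {M : Subgroup (GL chevF4.Idx K)}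
variable (hM : ∀ s < chevF4.nroots, ∀ t : K, xr R (elemOfGood G K) s t ∈ M ↔ t ∈ 𝔽)

local notation "x" => xr R (elemOfGood G K)

theorem f4_nil {r s : ℕ} (hr : r < chevF4.nroots) (hs : s < chevF4.nroots) (hsr : s ≠ r) (hsn : s ≠ chevF4.neg r)
    (hT : chevF4.commTerms r s = []) (t u : K) : (x r t)⁻¹ * x s u * x r t = x s u := by
  rw [cj R G hr hs hsr hsn hT]; simp

theorem f4_one {r s m : ℕ} (hr : r < chevF4.nroots) (hs : s < chevF4.nroots) (hsr : s ≠ r) (hsn : s ≠ chevF4.neg r)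
    (hT : chevF4.commTerms r s = [(m, 1, 1, 1)]) (u : K) : (x r 1)⁻¹ * x s u * x r 1 = x s u * x m u := by
  rw [cj R G hr hs hsr hsn hT]; simp [CharTwo.neg_eq]

include hM in
theorem loc_F4 (a : K) (v : GL chevF4.Idx K) (hv : v ∈ V R.tab (F := K) (44 + 1)) (hQ : QQ R G 𝔽 M (x 44 a * v)) : a ∈ 𝔽 := by
  have hh : R.half = 24 := by have := R.n_eq; have h3 : chevF4.nroots = 48 := by decide
                              omega
  obtain ⟨t1, v1, hv1, rfl⟩ := exists_mul_of_mem_V R.tab (elemOfGood G K) (k := 45) (by show R.half ≤ 45; omega) (by decide) hv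
  obtain ⟨t2, v2, hv2, rfl⟩ := exists_mul_of_mem_V R.tab (elemOfGood G K) (k := 46) (by show R.half ≤ 46; omega) (by decide) hv1
  obtain ⟨t3, v3, hv3, rfl⟩ := exists_mul_of_mem_V R.tab (elemOfGood G K) (k := 47) (by show R.half ≤ 47; omega) (by decide) hv2
  have h3 : v3 = 1 := V_n R hv3 (by decide)
  subst h3
  rw [mul_one] at hQ
  have hL := LF_le R G hM
  have hl : ∀ s < chevF4.nroots, x s 1 ∈ LF R G 𝔽 := fun s hs => xr_LF R G 𝔽 hs (one_mem 𝔽)
  -- `t1`
  have a1 : t1 ∈ 𝔽 := by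
    have h1 := hQ.cm R G 𝔽 hL (hl 25 (by decide))
    have e : cm (x 44 a * (x 45 t1 * (x 46 t2 * x 47 t3))) (x 25 1) = x 46 t1 := by
      have b1 := f4_nil R G (r := 25) (s := 44) (by decide) (by decide) (by decide) (by decide +kernel) (by decide +kernel) 1 a
      have b2 := f4_one R G (r := 25) (s := 45) (m := 46) (by decide) (by decide) (by decide) (by decide +kernel) (by decide +kernel) t1
      have b3 := f4_nil R G (r := 25) (s := 46) (by decide) (by decide) (by decide) (by decide +kernel) (by decide +kernel) 1 t2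
      have b4 := f4_nil R G (r := 25) (s := 47) (by decide) (by decide) (by decide) (by decide +kernel) (by decide +kernel) 1 t3
      have b5 := comm_of_cj (f4_nil R G (r := 46) (s := 47) (by decide) (by decide) (by decide) (by decide +kernel) (by decide +kernel) t1 t3)
      have b6 : x 46 t1 * x 46 t2 = x 46 t2 * x 46 t1 := by rw [xr_add, xr_add, add_comm]
      unfold cm
      calc (x 44 a * (x 45 t1 * (x 46 t2 * x 47 t3)))⁻¹ * ((x 25 1)⁻¹ * (x 44 a * (x 45 t1 * (x 46 t2 * x 47 t3))) * x 25 1)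
          = (x 44 a * (x 45 t1 * (x 46 t2 * x 47 t3)))⁻¹ * (((x 25 1)⁻¹ * x 44 a * x 25 1) * ((x 25 1)⁻¹ * x 45 t1 * x 25 1) *
            ((x 25 1)⁻¹ * x 46 t2 * x 25 1) * ((x 25 1)⁻¹ * x 47 t3 * x 25 1)) := by group
        _ = (x 47 t3)⁻¹ * (x 46 t2)⁻¹ * (x 46 t1 * x 46 t2) * x 47 t3 := by rw [b1, b2, b3, b4]; group
        _ = (x 47 t3)⁻¹ * (x 46 t1 * x 47 t3) := by rw [b6]; group
        _ = _ := by rw [b5]; group
    rw [e] at h1
    exact (hM 46 (by decide) _).1 h1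
  have q1 : QQ R G 𝔽 M (x 44 a * (x 46 t2 * x 47 t3)) := by
    have b1 := comm_of_cj (f4_nil R G (r := 44) (s := 45) (by decide) (by decide) (by decide) (by decide +kernel) (by decide +kernel) a t1)
    have e : x 44 a * (x 45 t1 * (x 46 t2 * x 47 t3)) = x 45 t1 * (x 44 a * (x 46 t2 * x 47 t3)) := by
      calc x 44 a * (x 45 t1 * (x 46 t2 * x 47 t3)) = (x 44 a * x 45 t1) * (x 46 t2 * x 47 t3) := by group
        _ = _ := by rw [b1]; group
    have hQ' : QQ R G 𝔽 M (x 44 a * (x 45 t1 * (x 46 t2 * x 47 t3))) := hQ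
    rw [e] at hQ'
    exact hQ'.mul R G 𝔽 (xr_LF R G 𝔽 (by decide) a1)
  have a2 : t2 ∈ 𝔽 := by
    have h1 := q1.cm R G 𝔽 hL (hl 24 (by decide))
    have e : cm (x 44 a * (x 46 t2 * x 47 t3)) (x 24 1) = x 47 t2 := by
      have b1 := f4_nil R G (r := 24) (s := 44) (by decide) (by decide) (by decide) (by decide +kernel) (by decide +kernel) 1 a
      have b2 := f4_one R G (r := 24) (s := 46) (m := 47) (by decide) (by decide) (by decide) (by decide +kernel) (by decide +kernel) t2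
      have b4 := f4_nil R G (r := 24) (s := 47) (by decide) (by decide) (by decide) (by decide +kernel) (by decide +kernel) 1 t3
      have b6 : x 47 t2 * x 47 t3 = x 47 t3 * x 47 t2 := by rw [xr_add, xr_add, add_comm]
      unfold cm
      calc (x 44 a * (x 46 t2 * x 47 t3))⁻¹ * ((x 24 1)⁻¹ * (x 44 a * (x 46 t2 * x 47 t3)) * x 24 1)
          = (x 44 a * (x 46 t2 * x 47 t3))⁻¹ * (((x 24 1)⁻¹ * x 44 a * x 24 1) *
            ((x 24 1)⁻¹ * x 46 t2 * x 24 1) * ((x 24 1)⁻¹ * x 47 t3 * x 24 1)) := by group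
        _ = (x 47 t3)⁻¹ * (x 47 t2 * x 47 t3) := by rw [b1, b2, b4]; group
        _ = _ := by rw [b6]; group
    rw [e] at h1
    exact (hM 47 (by decide) _).1 h1
  have q2 : QQ R G 𝔽 M (x 44 a * x 47 t3) := by
    have b1 := comm_of_cj (f4_nil R G (r := 44) (s := 46) (by decide) (by decide) (by decide) (by decide +kernel) (by decide +kernel) a t2)
    have e : x 44 a * (x 46 t2 * x 47 t3) = x 46 t2 * (x 44 a * x 47 t3) := by
      calc x 44 a * (x 46 t2 * x 47 t3) = (x 44 a * x 46 t2) * x 47 t3 := by group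
        _ = _ := by rw [b1]; group
    rw [e] at q1
    exact q1.mul R G 𝔽 (xr_LF R G 𝔽 (by decide) a2)
  have a3 : t3 ∈ 𝔽 := by
    have h1 := q2.cm R G 𝔽 hL (hl 23 (by decide))
    have e : cm (x 44 a * x 47 t3) (x 23 1) = x 46 t3 := by
      have b1 := f4_nil R G (r := 23) (s := 44) (by decide) (by decide) (by decide) (by decide +kernel) (by decide +kernel) 1 a
      have b2 := f4_one R G (r := 23) (s := 47) (m := 46) (by decide) (by decide) (by decide) (by decide +kernel) (by decide +kernel) t3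
      unfold cm
      calc (x 44 a * x 47 t3)⁻¹ * ((x 23 1)⁻¹ * (x 44 a * x 47 t3) * x 23 1)
          = (x 44 a * x 47 t3)⁻¹ * (((x 23 1)⁻¹ * x 44 a * x 23 1) * ((x 23 1)⁻¹ * x 47 t3 * x 23 1)) := by group
        _ = _ := by rw [b1, b2]; group
    rw [e] at h1
    exact (hM 46 (by decide) _).1 h1
  have q3 : QQ R G 𝔽 M (x 44 a) := by
    have b1 := comm_of_cj (f4_nil R G (r := 44) (s := 47) (by decide) (by decide) (by decide) (by decide +kernel) (by decide +kernel) a t3)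
    rw [b1] at q2
    exact q2.mul R G 𝔽 (xr_LF R G 𝔽 (by decide) a3)
  have h1 := q3.cm R G 𝔽 hL (hl 14 (by decide))
  have e : cm (x 44 a) (x 14 1) = x 40 a := by
    have b2 := f4_one R G (r := 14) (s := 44) (m := 40) (by decide) (by decide) (by decide) (by decide +kernel) (by decide +kernel) a
    unfold cm
    rw [b2, inv_mul_cancel_left]
  rw [e] at h1
  exact (hM 40 (by decide) _).1 h1

include hM in
theorem sit_F4_two (hf : ∀ t, t ∈ 𝔽 ↔ φ t = t) (MG : M ≤ chevF4.group K) : Sit R G φ 𝔽 M := by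
  have hL := LF_le R G hM
  have hcs : ∀ c ∈ ([1, -1] : List ℤ), (c : K) ≠ 0 := by
    intro c hc
    have : Fact (Nat.Prime 2) := ⟨Nat.prime_two⟩
    apply cast_ne K 2
    fin_cases hc <;> decide
  have hE := ext1 R G 𝔽 hM hL (ex := [44]) lchk_F4' hcs (by
    intro k hk hk1 hkn _ a v hv h
    rw [List.mem_singleton] at hk
    subst hk
    exact loc_F4 R G hM a v hv (QQ_of_mem R G 𝔽 h hL))
  refine ⟨hf, MG, hL, hE, ext2 R G 𝔽 hL hE (ex := [chevF4.nroots - 1, 44]) lchk_F4' hcs ?_⟩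
  intro k hk hk1 hkn a v hv hQ
  rcases List.mem_cons.1 hk with rfl | hk
  · exact loc_top R G hM (s := 4) (m := 31) (by decide +kernel) (by decide) (by decide) (by decide) (by decide +kernel) a v hv hQ
  · rw [List.mem_singleton] at hk
    subst hk
    exact loc_F4 R G hM a v hv hQ

end F4

end Cfsg.Agent.ChevM
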