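import Cfsg.Agent.ChevM.Loc

set_option autoImplicit false
set_option linter.unusedSectionVars false
set_option linter.unusedVariables false

/-!
# The remaining coordinates: `G₂` and `B₂` (helper19)
-/

namespace Cfsg.Agent.ChevM

open Cfsg.Lie Matrix Subgroup Cfsg.Agent.ChevU Cfsg.Agent.Chev

section G2

variable {K : Type*} [Field K] [CharP K 3] (R : RootFacts chevG2) (G : Chev.Good chevG2)
variable {φ : K →+* K} {𝔽 : Subfield K} {M : Subgroup (GL chevG2.Idx K)}
variable (hM : ∀ s < chevG2.nroots, ∀ t : K, xr R (elemOfGood G K) s t ∈ M ↔ t ∈ 𝔽)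

local notation "x" => xr R (elemOfGood G K)

include hM in
theorem loc_G2 (a : K) (v : GL chevG2.Idx K) (hv : v ∈ V R.tab (F := K) (9 + 1)) (hQ : QQ R G 𝔽 M (x 9 a * v)) : a ∈ 𝔽 := by
  have hh : R.half = 6 := by have := R.n_eq; have h3 : chevG2.nroots = 12 := by decide
                             omega
  have h30 : (3 : K) = 0 := three_zero
  obtain ⟨t1, v1, hv1, rfl⟩ := exists_mul_of_mem_V R.tab (elemOfGood G K) (k := 10) (by show R.half ≤ 10; omega) (by decide) hv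
  obtain ⟨t2, v2, hv2, rfl⟩ := exists_mul_of_mem_V R.tab (elemOfGood G K) (k := 11) (by show R.half ≤ 11; omega) (by decide) hv1
  have h3 : v2 = 1 := V_n R hv2 (by decide)
  subst h3
  rw [mul_one] at hQ
  have hQ : QQ R G 𝔽 M (x 9 a * (x 10 t1 * x 11 t2)) := hQ
  have hL := LF_le R G hM
  have hl : ∀ s < chevG2.nroots, x s 1 ∈ LF R G 𝔽 := fun s hs => xr_LF R G 𝔽 hs (one_mem 𝔽)
  have a1 : t1 ∈ 𝔽 := by
    have h1 := hQ.cm R G 𝔽 hL (hl 6 (by decide))
    have e : cm (x 9 a * (x 10 t1 * x 11 t2)) (x 6 1) = x 11 (-t1) := by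
      have b1 : (x 6 1)⁻¹ * x 9 a * x 6 1 = x 9 a := by
        rw [cj R G (r := 6) (s := 9) (T := []) (by decide) (by decide) (by decide) (by decide +kernel) (by decide +kernel)]
        simp
      have b2 := g2_610 R G 1 t1
      have b3 := g2_611 R G 1 t2
      rw [one_mul] at b2
      have b6 : x 11 (-t1) * x 11 t2 = x 11 t2 * x 11 (-t1) := by rw [xr_add, xr_add, add_comm]
      unfold cm
      calc (x 9 a * (x 10 t1 * x 11 t2))⁻¹ * ((x 6 1)⁻¹ * (x 9 a * (x 10 t1 * x 11 t2)) * x 6 1)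
          = (x 9 a * (x 10 t1 * x 11 t2))⁻¹ * (((x 6 1)⁻¹ * x 9 a * x 6 1) *
            ((x 6 1)⁻¹ * x 10 t1 * x 6 1) * ((x 6 1)⁻¹ * x 11 t2 * x 6 1)) := by group
        _ = (x 11 t2)⁻¹ * (x 11 (-t1) * x 11 t2) := by rw [b1, b2, b3]; group
        _ = _ := by rw [b6]; group
    rw [e] at h1
    have h2 := (hM 11 (by decide) _).1 h1
    have e2 : t1 = -(-t1) := by ring
    rw [e2]; exact neg_mem h2
  have q1 : QQ R G 𝔽 M (x 9 a * x 11 t2) := by
    have b1 := g2_109 R G t1 a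
    have e : x 9 a * (x 10 t1 * x 11 t2) = x 10 t1 * (x 9 a * x 11 t2) := by
      calc x 9 a * (x 10 t1 * x 11 t2) = (x 9 a * x 10 t1) * x 11 t2 := by group
        _ = _ := by rw [← b1]; group
    rw [e] at hQ
    exact hQ.mul R G 𝔽 (xr_LF R G 𝔽 (by decide) a1)
  have a2 : t2 ∈ 𝔽 := by
    have h1 := q1.cm R G 𝔽 hL (hl 5 (by decide))
    have e : cm (x 9 a * x 11 t2) (x 5 1) = x 10 (-t2) := by
      have b1 := g2_59 R G 1 a
      have b2 : (x 5 1)⁻¹ * x 11 t2 * x 5 1 = x 11 t2 * x 10 (-t2) := by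
        rw [cj R G (r := 5) (s := 11) (T := [(10, 1, 1, 1)]) (by decide) (by decide) (by decide) (by decide +kernel) (by decide +kernel)]
        simp
      unfold cm
      calc (x 9 a * x 11 t2)⁻¹ * ((x 5 1)⁻¹ * (x 9 a * x 11 t2) * x 5 1)
          = (x 9 a * x 11 t2)⁻¹ * (((x 5 1)⁻¹ * x 9 a * x 5 1) * ((x 5 1)⁻¹ * x 11 t2 * x 5 1)) := by group
        _ = _ := by rw [b1, b2]; group
    rw [e] at h1
    have h2 := (hM 10 (by decide) _).1 h1
    have e2 : t2 = -(-t2) := by ring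
    rw [e2]; exact neg_mem h2
  have q3 : QQ R G 𝔽 M (x 9 a) := by
    have b1 := g2_119 R G t2 a
    rw [← b1] at q1
    exact q1.mul R G 𝔽 (xr_LF R G 𝔽 (by decide) a2)
  have h1 := q3.cm R G 𝔽 hL (hl 4 (by decide))
  have e : cm (x 9 a) (x 4 1) = x 8 (2 * a) := by
    rw [cm_cj R G (r := 4) (s := 9) (T := [(8, -2, 1, 1), (6, 3, 2, 1), (11, -3, 1, 2)]) (by decide) (by decide) (by decide)
      (by decide +kernel) (by decide +kernel)]
    simp only [List.map_cons, List.map_nil, List.prod_cons, List.prod_nil, mul_one, pow_one]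
    have e1 : ((-2 : ℤ) : K) * -1 * a = 2 * a := by push_cast; ring
    have e2 : ((3 : ℤ) : K) * (-1) ^ 2 * a = 0 := by push_cast; linear_combination a * h30
    have e3 : ((-3 : ℤ) : K) * -1 * a ^ 2 = 0 := by push_cast; linear_combination (a ^ 2) * h30
    rw [e1, e2, e3, xr_zero, xr_zero, mul_one, mul_one]
  rw [e] at h1
  have h2 := (hM 8 (by decide) _).1 h1
  have e3 : a = -(2 * a) := by linear_combination a * h30
  rw [e3]
  exact neg_mem h2

include hM in
theorem sit_G2_three (hf : ∀ t, t ∈ 𝔽 ↔ φ t = t) (MG : M ≤ chevG2.group K) : Sit R G φ 𝔽 M := by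
  have hL := LF_le R G hM
  have hcs : ∀ c ∈ ([1, -1, 2, -2] : List ℤ), (c : K) ≠ 0 := by
    intro c hc
    have : Fact (Nat.Prime 3) := ⟨Nat.prime_three⟩
    apply cast_ne K 3
    fin_cases hc <;> decide
  have hE := ext1 R G 𝔽 hM hL (ex := [9]) lchk_G2_3 hcs (by
    intro k hk hk1 hkn _ a v hv h
    rw [List.mem_singleton] at hk
    subst hk
    exact loc_G2 R G hM a v hv (QQ_of_mem R G 𝔽 h hL))
  refine ⟨hf, MG, hL, hE, ext2 R G 𝔽 hL hE (ex := [chevG2.nroots - 1, 9]) lchk_G2_3 hcs ?_⟩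
  intro k hk hk1 hkn a v hv hQ
  rcases List.mem_cons.1 hk with rfl | hk
  · exact loc_top R G hM (s := 5) (m := 10) (by decide +kernel) (by decide) (by decide) (by decide) (by decide +kernel) a v hv hQ
  · rw [List.mem_singleton] at hk
    subst hk
    exact loc_G2 R G hM a v hv hQ

end G2

section B2

variable {K : Type*} [Field K] (R : RootFacts chevB2) (G : Chev.Good chevB2)
variable {φ : K →+* K} {𝔽 : Subfield K} {M : Subgroup (GL chevB2.Idx K)}
variable (hM : ∀ s < chevB2.nroots, ∀ t : K, xr R (elemOfGood G K) s t ∈ M ↔ t ∈ 𝔽)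

local notation "x" => xr R (elemOfGood G K)

include hM in
theorem top_B2 (hE : ∀ g ∈ M, g ∈ V R.tab (F := K) 0 → g ∈ UF R G 𝔽 0) (a : K) (v : GL chevB2.Idx K)
    (hv : v ∈ V R.tab (F := K) (chevB2.nroots - 1 + 1)) (hQ : QQ R G 𝔽 M (x (chevB2.nroots - 1) a * v)) : a ∈ 𝔽 := by
  have hh : R.half = 4 := by have := R.n_eq; have h3 : chevB2.nroots = 8 := by decide
                             omega
  rw [V_n R hv (by decide), mul_one] at hQ
  have hQ' : QQ R G 𝔽 M (x 7 a) := hQ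
  have h1 := hQ'.cm R G 𝔽 (LF_le R G hM) (xr_LF R G 𝔽 (s := 2) (by decide) (one_mem 𝔽))
  have e : cm (x 7 a) (x 2 1) = x 4 (-a) * x 6 (-a) := by
    rw [cm_cj R G (r := 2) (s := 7) (T := [(6, 1, 1, 1), (4, -1, 2, 1)]) (by decide) (by decide) (by decide)
      (by decide +kernel) (by decide +kernel)]
    simp only [List.map_cons, List.map_nil, List.prod_cons, List.prod_nil, mul_one, pow_one]
    have e1 : ((1 : ℤ) : K) * -1 * a = -a := by push_cast; ring
    have e2 : ((-1 : ℤ) : K) * (-1) ^ 2 * a = -a := by push_cast; ring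
    rw [e1, e2]
    apply Eq.symm
    apply comm_of_cj
    rw [cj R G (r := 4) (s := 6) (T := []) (by decide) (by decide) (by decide) (by decide +kernel) (by decide +kernel)]
    simp
  rw [e] at h1
  have h2 := hE _ h1 (mul_mem (xr_V R G (by omega) (by omega) (by decide) _) (xr_V R G (by omega) (by omega) (by decide) _))
  have h3 := (lead_of_UA0 R G (ac_const R 𝔽) (k := 4) (by omega) (by decide) (xr_V R G (by omega) (by omega) (by decide) _) h2).1
  have h4 : -a ∈ 𝔽 := h3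
  have e2 : a = -(-a) := by ring
  rw [e2]; exact neg_mem h4

include hM in
theorem sit_B2_odd (p : ℕ) [Fact p.Prime] [CharP K p] (hp : p ≠ 2) (hf : ∀ t, t ∈ 𝔽 ↔ φ t = t) (MG : M ≤ chevB2.group K) :
    Sit R G φ 𝔽 M := by
  have hL := LF_le R G hM
  have hcs : ∀ c ∈ ([1, -1, 2, -2] : List ℤ), (c : K) ≠ 0 := by
    intro c hc
    apply cast_ne K p
    have hp1 := (Fact.out : p.Prime).two_le
    have key : ∀ d : ℤ, d ∣ 2 → (p : ℤ) ∣ d → False := by
      intro d hd h
      have h2 : (p : ℤ) ∣ (2 : ℕ) := h.trans hd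
      have h3 : p ∣ 2 := by exact_mod_cast h2
      exact hp ((Nat.prime_dvd_prime_iff_eq Fact.out Nat.prime_two).1 h3)
    fin_cases hc
    · exact key 1 (by decide)
    · exact key (-1) (by decide)
    · exact key 2 (by decide)
    · exact key (-2) (by decide)
  have hE := ext1 R G 𝔽 hM hL (ex := []) lchk_B2 hcs (by intro k hk; exact absurd hk (by simp))
  refine ⟨hf, MG, hL, hE, ext2 R G 𝔽 hL hE (ex := [chevB2.nroots - 1]) lchk_B2 hcs ?_⟩
  intro k hk hk1 hkn a v hv hQ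
  rw [List.mem_singleton] at hk
  subst hk
  exact top_B2 R G hM hE a v hv hQ

include hM in
theorem sit_B2_two [CharP K 2] [Finite ↥M] (hf : ∀ t, t ∈ 𝔽 ↔ φ t = t) (MG : M ≤ chevB2.group K) :
    Sit R G φ 𝔽 M := by
  have hL := LF_le R G hM
  have hh : R.half = 4 := by have := R.n_eq; have h3 : chevB2.nroots = 8 := by decide
                             omega
  have hcs : ∀ c ∈ ([1, -1] : List ℤ), (c : K) ≠ 0 := by
    intro c hc
    have : Fact (Nat.Prime 2) := ⟨Nat.prime_two⟩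
    apply cast_ne K 2
    fin_cases hc <;> decide
  have h1 : ∀ s < chevB2.nroots, x s 1 ∈ M := fun s hs => (hM s hs 1).2 (one_mem 𝔽)
  have hv7 : ∀ v ∈ V R.tab (F := K) (6 + 1), ∃ t : K, v = x 7 t := by
    intro v hv
    obtain ⟨t1, v1, hv1, rfl⟩ := exists_mul_of_mem_V R.tab (elemOfGood G K) (k := 7) (by show R.half ≤ 7; omega) (by decide) hv
    have h3 : v1 = 1 := V_n R hv1 (by decide)
    exact ⟨t1, by rw [h3, mul_one]⟩
  have hE := ext1 R G 𝔽 hM hL (ex := [6]) lchk_B2' hcs (by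
    intro k hk hk1 hkn _ a v hv h
    rw [List.mem_singleton] at hk
    subst hk
    obtain ⟨t, rfl⟩ := hv7 v hv
    have h2 := EE.key R G h1 (s := a) (s' := t) h
    exact (hM 7 (by decide) a).1 (AP_le R G h1 a h2.1))
  refine ⟨hf, MG, hL, hE, ext2 R G 𝔽 hL hE (ex := [chevB2.nroots - 1, 6]) lchk_B2' hcs ?_⟩
  intro k hk hk1 hkn a v hv hQ
  rcases List.mem_cons.1 hk with rfl | hk
  · exact top_B2 R G hM hE a v hv hQ
  · rw [List.mem_singleton] at hk
    subst hk
    obtain ⟨t, rfl⟩ := hv7 v hv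
    have h2 := hQ.cm R G 𝔽 hL (xr_LF R G 𝔽 (s := 3) (by decide) (one_mem 𝔽))
    have e : cm (x 6 a * x 7 t) (x 3 1) = x 5 a * x 7 (a ^ 2) := by
      have h4 := b2_36 R G 1 a
      have h5 := b2_37 R G 1 t
      rw [one_mul, one_mul] at h4
      have h6 := comm_of_cj (b2_57 R G a t)
      unfold cm
      calc (x 6 a * x 7 t)⁻¹ * ((x 3 1)⁻¹ * (x 6 a * x 7 t) * x 3 1)
          = (x 7 t)⁻¹ * (x 6 a)⁻¹ * (((x 3 1)⁻¹ * x 6 a * x 3 1) * ((x 3 1)⁻¹ * x 7 t * x 3 1)) := by group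
        _ = (x 7 t)⁻¹ * (x 5 a * (x 7 (a ^ 2) * x 7 t)) := by rw [h4, h5]; group
        _ = (x 7 t)⁻¹ * (x 5 a * x 7 t) * x 7 (a ^ 2) := by rw [xr_add, add_comm, ← xr_add]; group
        _ = _ := by rw [h6]; group
    rw [e] at h2
    have h3 := hE _ h2 (mul_mem (xr_V R G (by omega) (by omega) (by decide) _) (xr_V R G (by omega) (by omega) (by decide) _))
    exact (lead_of_UA0 R G (ac_const R 𝔽) (k := 5) (by omega) (by decide) (xr_V R G (by omega) (by omega) (by decide) _) h3).1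

end B2

end Cfsg.Agent.ChevM
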