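import Cfsg.Agent.ChevM.EndChk

set_option autoImplicit false
set_option linter.unusedSectionVars false
set_option linter.unusedVariables false

/-!
# Finite overgroups of `G(q)` (helper19)
-/

namespace Cfsg.Agent.ChevM

open Cfsg.Lie Matrix Subgroup Cfsg.Agent.ChevU Cfsg.Agent.Chev

section gen

variable {D : ChevalleyDatum} {K : Type*} [Field K] (R : RootFacts D) (G : Chev.Good D) (E : ChevGrp.DData D)
variable {φ : K →+* K} {𝔽 : Subfield K} {M : Subgroup (GL D.Idx K)}

include E in
theorem end_short (S : Sit R G φ 𝔽 M) (hc : Conn D) (hn : 0 < D.nroots) [Finite 𝔽] [CharP K 2] [Finite ↥M] {L : List ℕ}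
    (hL : chkStab D L = true) (hL1 : D.nroots - 1 ∈ L) {hs : ℕ} (hs1 : hs ∉ L) (hk : D.nroots ≤ 2 * hs) (hkn : hs < D.nroots) :
    ∀ m ∈ M, sg D φ m = m := by
  have hh := R.n_eq
  have hk' : R.half ≤ hs := by omega
  refine two_end R G E S hc hn (xr_LF R G 𝔽 hkn (one_mem 𝔽)) ?_ (xr_ne_one R G hkn one_ne_zero) (nc_short R G E hn hL hL1 hs1 hk' hkn)
  rw [← pow_two]; exact xr_pow_char R G 2 _ _

include E in
theorem end_sl (S : Sit R G φ 𝔽 M) (hc : Conn D) (hn : 0 < D.nroots) [Finite 𝔽] [CharP K 2] [Finite ↥M] {r : ℕ}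
    (hr : nchk D r = true) : ∀ m ∈ M, sg D φ m = m := by
  have hh : D.nroots / 2 = R.half := by have := R.n_eq; omega
  have hn' := R.n_eq
  have hck := hr
  unfold nchk at hck
  rw [Bool.and_eq_true, Bool.and_eq_true, decide_eq_true_eq, decide_eq_true_eq, hh] at hck
  have hr1 := hck.1.1
  have hr2 := hck.1.2
  have hcom := high_central R G hn (xr_V R G (k := 0) (Nat.zero_le _) hr2 (by omega) (1 : K)) 1
  have e1 : xr R (elemOfGood G K) r 1 * xr R (elemOfGood G K) r 1 = 1 := by rw [← pow_two]; exact xr_pow_char R G 2 _ _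
  have e2 : xr R (elemOfGood G K) (D.nroots - 1) 1 * xr R (elemOfGood G K) (D.nroots - 1) 1 = 1 := by
    rw [← pow_two]; exact xr_pow_char R G 2 _ _
  refine two_end R G E S hc hn (c := xr R (elemOfGood G K) r 1 * xr R (elemOfGood G K) (D.nroots - 1) 1)
    (mul_mem (xr_LF R G 𝔽 (by omega) (one_mem 𝔽)) (xr_LF R G 𝔽 (by omega) (one_mem 𝔽))) ?_ ?_ (nc_two R G E hn hr)
  · calc xr R (elemOfGood G K) r 1 * xr R (elemOfGood G K) (D.nroots - 1) 1 * (xr R (elemOfGood G K) r 1 * xr R (elemOfGood G K) (D.nroots - 1) 1)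
        = xr R (elemOfGood G K) r 1 * (xr R (elemOfGood G K) (D.nroots - 1) 1 * xr R (elemOfGood G K) r 1) * xr R (elemOfGood G K) (D.nroots - 1) 1 := by group
      _ = (xr R (elemOfGood G K) r 1 * xr R (elemOfGood G K) r 1) * (xr R (elemOfGood G K) (D.nroots - 1) 1 * xr R (elemOfGood G K) (D.nroots - 1) 1) := by
        rw [← hcom]; group
      _ = 1 := by rw [e1, e2, one_mul]
  · intro h
    have h1 : xr R (elemOfGood G K) r 1 * xr R (elemOfGood G K) (D.nroots - 1) 1 = xr R (elemOfGood G K) r 0 * 1 := by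
      rw [h, xr_zero, mul_one]
    have := (eq_of_mul_eq R.tab (elemOfGood G K) hr2 (by omega) (xr_V R G (by omega) (by omega) (by omega) _) (one_mem _) h1).1
    exact one_ne_zero this

end gen

theorem ndvd_of {p : ℕ} [hp : Fact p.Prime] {n : ℕ} (h : ∀ q : ℕ, q.Prime → q ∣ n → p ≠ q) {d : ℤ} (hd : d ∣ n) : ¬ (p : ℤ) ∣ d := by
  intro h1
  have h2 : (p : ℤ) ∣ (n : ℤ) := h1.trans hd
  have h3 : p ∣ n := by exact_mod_cast h2
  exact h p hp.out h3 rfl

/-- **Finite overgroups.** -/
theorem main_fix {D : ChevalleyDatum} (hD : D ∈ [chevG2, chevB2, chevD4, chevF4, chevE6, chevE7, chevE8]) {K : Type*} [Field K]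
    (p : ℕ) [hp : Fact p.Prime] [CharP K p] (R : RootFacts D) (G : Chev.Good D) (M : Subgroup (GL D.Idx K)) [Finite ↥M]
    (MG : M ≤ D.group K) (h1 : ∀ s < D.nroots, xr R (elemOfGood G K) s 1 ∈ M) :
    ∃ 𝔽 : Subfield K, Finite 𝔽 ∧ (∀ s < D.nroots, ∀ t : K, xr R (elemOfGood G K) s t ∈ M ↔ t ∈ 𝔽) ∧
      ∀ φ : K →+* K, (∀ t, t ∈ 𝔽 ↔ φ t = t) → ∀ m ∈ M, sg D φ m = m := by
  have hc := conn_of_mem hD
  obtain ⟨E⟩ := ChevGrp.DData.nonempty_of_mem hD
  simp only [List.mem_cons, List.not_mem_nil, or_false] at hD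
  have cs1 : ∀ c ∈ ([1, -1] : List ℤ), (c : K) ≠ 0 := by
    intro c hc
    apply cast_ne K p
    apply ndvd_of (n := 1) (fun q hq h => by have := Nat.dvd_one.1 h; subst this; exact absurd hq Nat.not_prime_one)
    fin_cases hc <;> decide
  have cs2 : p ≠ 2 → ∀ c ∈ ([1, -1, 2, -2] : List ℤ), (c : K) ≠ 0 := by
    intro hp2 c hc
    apply cast_ne K p
    apply ndvd_of (n := 2) (fun q hq h => by rw [(Nat.prime_dvd_prime_iff_eq hq Nat.prime_two).1 h]; exact hp2)
    fin_cases hc <;> decide
  have cs3 : p ≠ 3 → ∀ c ∈ ([1, -1, 3, -3] : List ℤ), (c : K) ≠ 0 := by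
    intro hp2 c hc
    apply cast_ne K p
    apply ndvd_of (n := 3) (fun q hq h => by rw [(Nat.prime_dvd_prime_iff_eq hq Nat.prime_three).1 h]; exact hp2)
    fin_cases hc <;> decide
  rcases hD with rfl | rfl | rfl | rfl | rfl | rfl | rfl
  · -- `G₂`
    obtain ⟨𝔽, hf, hM⟩ := uni_G2 R G h1 p
    refine ⟨𝔽, hf, hM, fun φ hφ => ?_⟩
    have S : Sit R G φ 𝔽 M := by
      by_cases hp3 : p = 3
      · subst hp3
        exact sit_G2_three R G hM hφ MG
      · by_cases hp2 : p = 2
        · exact sit_gen R G hM hφ MG lchk_G2_2 (cs3 hp3) (s := 5) (m := 10) (by decide +kernel) (by decide) (by decide) (by decide)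
            (by decide +kernel)
        · refine sit_gen R G hM hφ MG lchk_G2 ?_ (s := 5) (m := 10) (by decide +kernel) (by decide) (by decide) (by decide)
            (by decide +kernel)
          intro c hc
          have h2 := cs2 hp2
          have h3 := cs3 hp3
          fin_cases hc
          · exact h2 _ (by simp)
          · exact h2 _ (by simp)
          · exact h2 _ (by simp)
          · exact h2 _ (by simp)
          · exact h3 _ (by simp)
          · exact h3 _ (by simp)
    by_cases hp2 : p = 2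
    · subst hp2
      exact end_short R G E S hc (by decide) stab_G2 (by decide) (hs := 9) (by decide) (by decide) (by decide)
    · exact odd_end R G E S hc (by decide) (by decide) p hp2 stab_G2 (by decide) ochk_G2
  · -- `B₂`
    have hU : Uni R G M := by
      by_cases hp2 : p = 2
      · subst hp2
        exact uni_B2_two R G h1
      · exact (bf_of_chk R G M bchk_B2 h1).uni_odd R G p hp2 h1
    obtain ⟨𝔽, hf, hM⟩ := hU
    refine ⟨𝔽, hf, hM, fun φ hφ => ?_⟩
    by_cases hp2 : p = 2
    · subst hp2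
      exact end_short R G E (sit_B2_two R G hM hφ MG) hc (by decide) stab_B2 (by decide) (hs := 6) (by decide) (by decide) (by decide)
    · exact odd_end R G E (sit_B2_odd R G hM p hp2 hφ MG) hc (by decide) (by decide) p hp2 stab_B2 (by decide) ochk_B2
  · -- `D₄`
    obtain ⟨𝔽, hf, hM⟩ := uni_sl R G M schk_D4 h1
    refine ⟨𝔽, hf, hM, fun φ hφ => ?_⟩
    have S : Sit R G φ 𝔽 M := sit_gen R G hM hφ MG lchk_D4 cs1 (s := 2) (m := 15) (by decide +kernel) (by decide) (by decide) (by decide)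
            (by decide +kernel)
    by_cases hp2 : p = 2
    · subst hp2
      exact end_sl R G E S hc (by decide) nchk_D4
    · exact odd_end R G E S hc (by decide) (by decide) p hp2 stab_D4 (List.mem_range.2 (by decide)) ochk_D4
  · -- `F₄`
    obtain ⟨𝔽, hf, hM⟩ := uni_F4 R G M p h1
    refine ⟨𝔽, hf, hM, fun φ hφ => ?_⟩
    by_cases hp2 : p = 2
    · subst hp2
      exact end_short R G E (sit_F4_two R G hM hφ MG) hc (by decide) stab_F4 (by decide) (hs := 44) (by decide) (by decide) (by decide)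
    · have S : Sit R G φ 𝔽 M := sit_gen R G hM hφ MG lchk_F4 (cs2 hp2) (s := 4) (m := 31) (by decide +kernel) (by decide) (by decide) (by decide)
            (by decide +kernel)
      exact odd_end R G E S hc (by decide) (by decide) p hp2 stab_F4 (by decide) ochk_F4
  · -- `E₆`
    obtain ⟨𝔽, hf, hM⟩ := uni_sl R G M schk_E6 h1
    refine ⟨𝔽, hf, hM, fun φ hφ => ?_⟩
    have S : Sit R G φ 𝔽 M := sit_gen R G hM hφ MG lchk_E6 cs1 (s := 2) (m := 47) (by decide +kernel) (by decide) (by decide) (by decide)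
            (by decide +kernel)
    by_cases hp2 : p = 2
    · subst hp2
      exact end_sl R G E S hc (by decide) nchk_E6
    · exact odd_end R G E S hc (by decide) (by decide) p hp2 stab_E6 (List.mem_range.2 (by decide)) ochk_E6
  · -- `E₇`
    obtain ⟨𝔽, hf, hM⟩ := uni_sl R G M schk_E7 h1
    refine ⟨𝔽, hf, hM, fun φ hφ => ?_⟩
    have S : Sit R G φ 𝔽 M := sit_gen R G hM hφ MG lchk_E7 cs1 (s := 2) (m := 94) (by decide +kernel) (by decide) (by decide) (by decide)
            (by decide +kernel)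
    by_cases hp2 : p = 2
    · subst hp2
      exact end_sl R G E S hc (by decide) nchk_E7
    · exact odd_end R G E S hc (by decide) (by decide) p hp2 stab_E7 (List.mem_range.2 (by decide)) ochk_E7
  · -- `E₈`
    obtain ⟨𝔽, hf, hM⟩ := uni_sl R G M schk_E8 h1
    refine ⟨𝔽, hf, hM, fun φ hφ => ?_⟩
    have S : Sit R G φ 𝔽 M := sit_gen R G hM hφ MG lchk_E8 cs1 (s := 8) (m := 151) (by decide +kernel) (by decide) (by decide) (by decide)
            (by decide +kernel)
    by_cases hp2 : p = 2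
    · subst hp2
      exact end_sl R G E S hc (by decide) nchk_E8
    · exact odd_end R G E S hc (by decide) (by decide) p hp2 stab_E8 (List.mem_range.2 (by decide)) ochk_E8

end Cfsg.Agent.ChevM
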