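import Cfsg.Agent.ChevM.Fld

set_option autoImplicit false
set_option linter.unusedSectionVars false
set_option linter.unusedVariables false

/-!
# Finite overgroups of `G(q)` and maximality of subfield subgroups (helper19)
-/

namespace Cfsg.Agent.ChevM

open Cfsg.Lie Matrix Subgroup Cfsg.Agent.ChevU Cfsg.Agent.Chev

theorem sg_entry {D : ChevalleyDatum} {K : Type*} [Field K] (p : ℕ) [Fact p.Prime] [CharP K p] (e : ℕ) (g : GL D.Idx K) :
    sg D (iterateFrobenius K p e) g = g ↔ ∀ i j : D.Idx, ((g : Matrix D.Idx D.Idx K) i j) ^ p ^ e = (g : Matrix D.Idx D.Idx K) i j := by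
  have key : ∀ i j : D.Idx, ((sg D (iterateFrobenius K p e) g : GL D.Idx K) : Matrix D.Idx D.Idx K) i j =
      ((g : Matrix D.Idx D.Idx K) i j) ^ p ^ e := by
    intro i j
    rw [sg, glMap_coe, Matrix.map_apply, iterateFrobenius_def]
  constructor
  · intro h i j
    rw [← key, h]
  · intro h
    apply Units.ext
    ext i j
    rw [key, h]

/-- S2189 -/
theorem over_closed {k : Type*} [Field k] [IsAlgClosed k] (p : ℕ) [Fact p.Prime] [CharP k p] (D : ChevalleyDatum)
    (hD : D ∈ [chevG2, chevB2, chevD4, chevF4, chevE6, chevE7, chevE8]) (a : ℕ) (ha : 1 ≤ a) (M : Subgroup (GL D.Idx k))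
    (hMfin : Finite ↥M) (hMG : M ≤ D.group k)
    (hLM : Subgroup.closure {g : GL D.Idx k | ∃ (s : ℕ) (t : k), t ^ (p ^ a) = t ∧ (g : Matrix D.Idx D.Idx k) = D.x k s t} ≤ M) :
    ∃ r : ℕ, 1 ≤ r ∧ Subgroup.closure {g : GL D.Idx k | ∃ (s : ℕ) (t : k), t ^ ((p ^ a) ^ r) = t ∧ (g : Matrix D.Idx D.Idx k) = D.x k s t} ≤ M ∧
      ∀ g ∈ M, ∀ i j : D.Idx, ((g : Matrix D.Idx D.Idx k) i j) ^ ((p ^ a) ^ r) = (g : Matrix D.Idx D.Idx k) i j := by
  have R := rootFacts hD
  have G : Chev.Good D := good_of_mem hD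
  have h1 : ∀ s < D.nroots, ∀ t : k, t ^ (p ^ a) = t → xr R (elemOfGood G k) s t ∈ M := fun s hs t ht =>
    hLM (subset_closure ⟨s, t, ht, coe_xr R _ s t⟩)
  obtain ⟨𝔽, hf, hM, hfix⟩ := main_fix hD p R G M hMG (fun s hs => h1 s hs 1 (one_pow _))
  have hn : 0 < D.nroots := by
    simp only [List.mem_cons, List.not_mem_nil, or_false] at hD
    rcases hD with rfl | rfl | rfl | rfl | rfl | rfl | rfl <;> decide
  obtain ⟨hc0, hf0⟩ := card_fixF (K := k) p ha (IsAlgClosed.splits _)
  have hle : fixF k p a ≤ 𝔽 := by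
    intro t ht
    rw [mem_fixF] at ht
    exact (hM 0 hn t).1 (h1 0 hn t ht)
  obtain ⟨r, hr, hcard⟩ := card_pow_of_le hle
  rw [hc0] at hcard
  have hmem : ∀ t : k, t ∈ 𝔽 ↔ t ^ ((p ^ a) ^ r) = t := fun t => by rw [← hcard]; exact mem_iff_pow 𝔽 t
  refine ⟨r, hr, ?_, ?_⟩
  · rw [closure_le]
    rintro g ⟨s, t, ht, hg⟩
    by_cases hs : s < D.nroots
    · have : g = xr R (elemOfGood G k) s t := Units.ext hg
      rw [SetLike.mem_coe, this]
      exact (hM s hs t).2 ((hmem t).2 ht)
    · rw [x_of_ge k hs] at hg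
      have : g = 1 := Units.ext hg
      rw [SetLike.mem_coe, this]
      exact one_mem _
  · intro g hg
    rw [← pow_mul]
    refine (sg_entry p (a * r) g).1 (hfix _ (fun t => ?_) g hg)
    rw [iterateFrobenius_def, pow_mul]
    exact hmem t

theorem splits_sub {K : Type*} [Field K] [Fintype K] (p : ℕ) [hp : Fact p.Prime] [CharP K p] {a r : ℕ} (ha : 1 ≤ a)
    (hr : r ≠ 0) (hK : Fintype.card K = (p ^ a) ^ r) : (Polynomial.X ^ p ^ a - Polynomial.X : Polynomial K).Splits := by
  have h1 := (FiniteField.isSplittingField_sub K K).splits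
  rw [Algebra.algebraMap_self, Polynomial.map_id] at h1
  refine h1.of_dvd (FiniteField.X_pow_card_sub_X_ne_zero K Fintype.one_lt_card) ?_
  rw [hK]
  have := dvd_pow_pow_sub_self_of_dvd (r := (Polynomial.X : Polynomial K)) (p := p ^ a) (a := 1) (b := r) (one_dvd _)
  rwa [pow_one] at this

/-- S2190 -/
theorem sub_max {K : Type*} [Field K] [Fintype K] (p : ℕ) [hp : Fact p.Prime] [CharP K p] (D : ChevalleyDatum)
    (hD : D ∈ [chevG2, chevB2, chevD4, chevF4, chevE6, chevE7, chevE8]) (a r : ℕ) (ha : 1 ≤ a) (hr : r.Prime)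
    (hK : Fintype.card K = (p ^ a) ^ r) (M : Subgroup (GL D.Idx K))
    (hM : ∀ g : GL D.Idx K, g ∈ M ↔ g ∈ D.group K ∧ ∀ i j : D.Idx, ((g : Matrix D.Idx D.Idx K) i j) ^ (p ^ a) = (g : Matrix D.Idx D.Idx K) i j) :
    M ≠ D.group K ∧ ∀ H : Subgroup (GL D.Idx K), M ≤ H → H ≤ D.group K → H = M ∨ H = D.group K := by
  have R := rootFacts hD
  have G : Chev.Good D := good_of_mem hD
  have hn : 0 < D.nroots := by
    simp only [List.mem_cons, List.not_mem_nil, or_false] at hD
    rcases hD with rfl | rfl | rfl | rfl | rfl | rfl | rfl <;> decide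
  have hpa : 1 < p ^ a := Nat.one_lt_pow (by omega) hp.out.one_lt
  set φ := iterateFrobenius K p a with hφ
  have hM' : ∀ g : GL D.Idx K, g ∈ M ↔ g ∈ D.group K ∧ sg D φ g = g := fun g => by rw [hM, hφ, sg_entry]
  have hxG : ∀ s < D.nroots, ∀ t : K, xr R (elemOfGood G K) s t ∈ D.group K := by
    intro s hs t
    rw [group_eq_clo]
    exact xr_mem_clo R _ (P := fun r => r < D.nroots) hs _
  have hxM : ∀ s < D.nroots, ∀ t : K, φ t = t → xr R (elemOfGood G K) s t ∈ M := by
    intro s hs t ht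
    rw [hM']
    exact ⟨hxG s hs t, by rw [sg_xr R G φ, ht]⟩
  obtain ⟨hc0, hf0⟩ := card_fixF (K := K) p ha (splits_sub p ha hr.ne_zero hK)
  have hcK : Nat.card K = (p ^ a) ^ r := by rw [Nat.card_eq_fintype_card, hK]
  constructor
  · intro h
    have h1 : ∀ t : K, t ∈ fixF K p a := by
      intro t
      have h2 := hxG 0 hn t
      rw [← h, hM', sg_xr R G φ] at h2
      have h3 := xr_injective R G hn h2.2
      rw [mem_fixF, ← iterateFrobenius_def]
      exact h3
    have h2 : Nat.card (fixF K p a) = Nat.card K := Nat.card_congr (Equiv.subtypeUnivEquiv h1)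
    rw [hc0, hcK] at h2
    have h3 := Nat.pow_right_injective hpa (show (p ^ a) ^ 1 = (p ^ a) ^ r by rw [pow_one]; exact h2)
    exact hr.one_lt.ne h3
  · intro H hMH hHG
    obtain ⟨𝔽, hf, hH, hfix⟩ := main_fix hD p R G H hHG (fun s hs => hMH (hxM s hs 1 (map_one φ)))
    have hle : fixF K p a ≤ 𝔽 := by
      intro t ht
      rw [mem_fixF, ← iterateFrobenius_def] at ht
      exact (hH 0 hn t).1 (hMH (hxM 0 hn t ht))
    obtain ⟨s, hs, hcard⟩ := card_pow_of_le hle
    rw [hc0] at hcard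
    have hfT : Finite (⊤ : Subfield K) := inferInstance
    obtain ⟨d, hd, hcard2⟩ := card_pow_of_le (le_top : 𝔽 ≤ ⊤)
    have hcT : Nat.card (⊤ : Subfield K) = Nat.card K := Nat.card_congr (Equiv.subtypeUnivEquiv fun t => trivial)
    have hcard3 : (p ^ a) ^ r = (p ^ a) ^ (s * d) := by
      rw [← hcK, ← hcT, hcard2, hcard]; exact (pow_mul _ _ _).symm
    have hrd : r = s * d := Nat.pow_right_injective hpa hcard3
    rcases (Nat.dvd_prime hr).1 (Dvd.intro d hrd.symm) with h1 | h1
    · -- the small field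
      left
      rw [h1, pow_one] at hcard
      have heq : fixF K p a = 𝔽 := by
        apply SetLike.coe_injective
        apply Set.eq_of_subset_of_ncard_le hle
        · show Nat.card 𝔽 ≤ Nat.card (fixF K p a)
          rw [hcard, hc0]
      apply le_antisymm _ hMH
      intro g hg
      rw [hM']
      refine ⟨hHG hg, hfix φ (fun t => ?_) g hg⟩
      rw [← heq, mem_fixF, hφ, iterateFrobenius_def]
    · right
      apply le_antisymm hHG
      rw [h1] at hcard
      have htop : ∀ t : K, t ∈ 𝔽 := by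
        have : (𝔽 : Set K) = Set.univ := by
          apply Set.eq_of_subset_of_ncard_le (Set.subset_univ _)
          · rw [Set.ncard_univ]
            show Nat.card K ≤ Nat.card 𝔽
            rw [hcard, hcK]
        intro t
        have h2 : t ∈ (𝔽 : Set K) := by rw [this]; trivial
        exact h2
      rw [group_eq_clo]
      apply clo_le R (elemOfGood G K)
      intro s' hs' t
      exact (hH s' hs' t).2 (htop t)

end Cfsg.Agent.ChevM
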