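import Cfsg.Agent.ChevM.UniChk

set_option autoImplicit false
set_option linter.unusedSectionVars false
set_option linter.unusedVariables false

/-!
# The root groups of a finite overgroup: `B₂` in characteristic two (helper19)
-/

namespace Cfsg.Agent.ChevM

open Cfsg.Lie Matrix Subgroup Cfsg.Agent.ChevU Cfsg.Agent.Chev

section gen

variable {D : ChevalleyDatum} {K : Type*} [Field K] (R : RootFacts D) (G : Chev.Good D) (E : ChevGrp.DData D)
variable (M : Subgroup (GL D.Idx K))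

theorem cj {r s : ℕ} (hr : r < D.nroots) (hs : s < D.nroots) (hsr : s ≠ r) (hsn : s ≠ D.neg r) {T : List (ℕ × ℤ × ℕ × ℕ)}
    (hT : D.commTerms r s = T) (t u : K) :
    (xr R (elemOfGood G K) r t)⁻¹ * xr R (elemOfGood G K) s u * xr R (elemOfGood G K) r t = xr R (elemOfGood G K) s u *
      (T.map fun c => xr R (elemOfGood G K) c.1 ((c.2.1 : K) * (-t) ^ c.2.2.1 * u ^ c.2.2.2)).prod := by
  have h1 := conj_xu R.tab (elemOfGood G K) hr hs hsr hsn t u
  unfold ChevalleyDatum.commWord at h1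
  rw [hT] at h1
  unfold wu at h1
  rw [List.map_map] at h1
  exact h1

theorem conj_two [CharP K 2] {i : ℕ} (hi : i < D.rank) {s : ℕ} (hs : s < D.nroots) (t : K) :
    nU R (elemOfGood G K) (D.simple i) 1 * xr R (elemOfGood G K) s t * (nU R (elemOfGood G K) (D.simple i) 1)⁻¹ =
      xr R (elemOfGood G K) (D.reflectRoot i s) t := by
  have h1 := ChevGrp.Inst.nn_xU (F := K) G hi hs t
  have e : ChevGrp.Inst.nn G K i = nU R (elemOfGood G K) (D.simple i) 1 := Units.ext rfl
  rw [e, ← xr_eq_xU (R := R) (H := G), ← xr_eq_xU (R := R) (H := G)] at h1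
  rw [h1]
  congr 1
  have h2 : (-1 : K) = 1 := CharTwo.neg_eq 1
  rcases ChevGrp.Inst.eta_pm (F := K) G hi hs with h | h <;> rw [h]
  · rw [one_mul]
  · rw [h2, one_mul]

end gen

variable {K : Type*} [Field K] (R : RootFacts chevB2) (G : Chev.Good chevB2) (M : Subgroup (GL chevB2.Idx K))

local notation "x" => xr R (elemOfGood G K)

section two
variable [CharP K 2]

theorem b2_36 (t u : K) : (x 3 t)⁻¹ * x 6 u * x 3 t = x 6 u * (x 5 (t * u) * x 7 (t * u ^ 2)) := by
  rw [cj R G (r := 3) (s := 6) (T := [(5, 1, 1, 1), (7, 1, 1, 2)]) (by decide) (by decide) (by decide) (by decide +kernel) (by decide +kernel)]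
  simp [CharTwo.neg_eq]

theorem b2_27 (t u : K) : (x 2 t)⁻¹ * x 7 u * x 2 t = x 7 u * (x 6 (t * u) * x 4 (t ^ 2 * u)) := by
  rw [cj R G (r := 2) (s := 7) (T := [(6, 1, 1, 1), (4, -1, 2, 1)]) (by decide) (by decide) (by decide) (by decide +kernel) (by decide +kernel)]
  simp [CharTwo.neg_eq]

theorem b2_45 (t u : K) : (x 4 t)⁻¹ * x 5 u * x 4 t = x 5 u * (x 6 (t * u) * x 7 (t * u ^ 2)) := by
  rw [cj R G (r := 4) (s := 5) (T := [(6, 1, 1, 1), (7, -1, 1, 2)]) (by decide) (by decide) (by decide) (by decide +kernel) (by decide +kernel)]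
  simp [CharTwo.neg_eq]

theorem b2_26 (t u : K) : (x 2 t)⁻¹ * x 6 u * x 2 t = x 6 u := by
  rw [cj R G (r := 2) (s := 6) (T := [(4, -2, 1, 1)]) (by decide) (by decide) (by decide) (by decide +kernel) (by decide +kernel)]
  have : (2 : K) = 0 := CharTwo.two_eq_zero
  simp [this, xr_zero]

theorem b2_65 (t u : K) : (x 6 t)⁻¹ * x 5 u * x 6 t = x 5 u := by
  rw [cj R G (r := 6) (s := 5) (T := [(7, -2, 1, 1)]) (by decide) (by decide) (by decide) (by decide +kernel) (by decide +kernel)]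
  have : (2 : K) = 0 := CharTwo.two_eq_zero
  simp [this, xr_zero]

theorem b2_37 (t u : K) : (x 3 t)⁻¹ * x 7 u * x 3 t = x 7 u := by
  rw [cj R G (r := 3) (s := 7) (T := []) (by decide) (by decide) (by decide) (by decide +kernel) (by decide +kernel)]
  simp

theorem b2_67 (t u : K) : (x 6 t)⁻¹ * x 7 u * x 6 t = x 7 u := by
  rw [cj R G (r := 6) (s := 7) (T := []) (by decide) (by decide) (by decide) (by decide +kernel) (by decide +kernel)]
  simp

theorem b2_57 (t u : K) : (x 5 t)⁻¹ * x 7 u * x 5 t = x 7 u := by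
  rw [cj R G (r := 5) (s := 7) (T := []) (by decide) (by decide) (by decide) (by decide +kernel) (by decide +kernel)]
  simp

theorem b2_47 (t u : K) : (x 4 t)⁻¹ * x 7 u * x 4 t = x 7 u := by
  rw [cj R G (r := 4) (s := 7) (T := []) (by decide) (by decide) (by decide) (by decide +kernel) (by decide +kernel)]
  simp

theorem comm_of_cj {Γ : Type*} [Group Γ] {a b : Γ} (h : a⁻¹ * b * a = b) : a * b = b * a := by
  calc a * b = a * (a⁻¹ * b * a) := by rw [h]
    _ = b * a := by group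

variable {M}

/-- the two coordinates -/
def EE (s s' : K) : Prop := x 6 s * x 7 s' ∈ M

variable (h1 : ∀ s < chevB2.nroots, xr R (elemOfGood G K) s 1 ∈ M)

theorem EE.add {s s' t t' : K} (h : EE R G (M := M) s s') (h' : EE R G (M := M) t t') : EE R G (M := M) (s + t) (s' + t') := by
  have := mul_mem h h'
  have e : x 6 s * x 7 s' * (x 6 t * x 7 t') = x 6 (s + t) * x 7 (s' + t') := by
    have h2 := comm_of_cj (b2_67 R G t s')
    calc x 6 s * x 7 s' * (x 6 t * x 7 t') = x 6 s * (x 7 s' * x 6 t) * x 7 t' := by group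
      _ = (x 6 s * x 6 t) * (x 7 s' * x 7 t') := by rw [← h2]; group
      _ = _ := by rw [xr_add, xr_add]
  rw [e] at this
  exact this

include h1 in
theorem nU4 : nU R (elemOfGood G K) 4 1 ∈ M := nU_of_one R G h1 1 (by decide)
include h1 in
theorem nU5 : nU R (elemOfGood G K) 5 1 ∈ M := nU_of_one R G h1 0 (by decide)

include h1 in
theorem EE.c2 {s s' : K} (h : EE R G (M := M) s s') : EE R G (M := M) s' s' := by
  have hm : x 6 s * x 7 s' ∈ M := h
  have h2 : x 2 1 ∈ M := h1 2 (by decide)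
  have h3 := mul_mem (mul_mem (inv_mem h2) hm) h2
  have e : (x 2 1)⁻¹ * (x 6 s * x 7 s') * x 2 1 = x 6 s * x 7 s' * (x 6 s' * x 4 s') := by
    have h4 := b2_26 R G 1 s
    have h5 := b2_27 R G 1 s'
    rw [one_mul, one_pow, one_mul] at h5
    calc (x 2 1)⁻¹ * (x 6 s * x 7 s') * x 2 1 = ((x 2 1)⁻¹ * x 6 s * x 2 1) * ((x 2 1)⁻¹ * x 7 s' * x 2 1) := by group
      _ = _ := by rw [h4, h5]; group
  rw [e] at h3
  have h6 : x 6 s' * x 4 s' ∈ M := by
    have := mul_mem (inv_mem hm) h3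
    rwa [inv_mul_cancel_left] at this
  have h7 := nU5 R G h1
  have h8 := mul_mem (mul_mem h7 h6) (inv_mem h7)
  have h9 := conj_two R G (i := 0) (by decide) (s := 6) (by decide) s'
  have h10 := conj_two R G (i := 0) (by decide) (s := 4) (by decide) s'
  have r1 : chevB2.simple 0 = 5 := by decide +kernel
  have r2 : chevB2.reflectRoot 0 6 = 6 := by decide +kernel
  have r3 : chevB2.reflectRoot 0 4 = 7 := by decide +kernel
  rw [r1, r2] at h9
  rw [r1, r3] at h10
  have e2 : nU R (elemOfGood G K) 5 1 * (x 6 s' * x 4 s') * (nU R (elemOfGood G K) 5 1)⁻¹ =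
    (nU R (elemOfGood G K) 5 1 * x 6 s' * (nU R (elemOfGood G K) 5 1)⁻¹) * (nU R (elemOfGood G K) 5 1 * x 4 s' * (nU R (elemOfGood G K) 5 1)⁻¹) := by group
  rw [e2, h9, h10] at h8
  exact h8

include h1 in
theorem EE.c3 {s s' : K} (h : EE R G (M := M) s s') : EE R G (M := M) s (s ^ 2) := by
  have hm : x 6 s * x 7 s' ∈ M := h
  have h2 : x 3 1 ∈ M := h1 3 (by decide)
  have h3 := mul_mem (mul_mem (inv_mem h2) hm) h2
  have e : (x 3 1)⁻¹ * (x 6 s * x 7 s') * x 3 1 = x 6 s * x 7 s' * (x 5 s * x 7 (s ^ 2)) := by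
    have h4 := b2_36 R G 1 s
    have h5 := b2_37 R G 1 s'
    rw [one_mul, one_mul] at h4
    have h6 := comm_of_cj (b2_57 R G s s')
    calc (x 3 1)⁻¹ * (x 6 s * x 7 s') * x 3 1 = ((x 3 1)⁻¹ * x 6 s * x 3 1) * ((x 3 1)⁻¹ * x 7 s' * x 3 1) := by group
      _ = x 6 s * (x 5 s * (x 7 (s ^ 2) * x 7 s')) := by rw [h4, h5]; group
      _ = x 6 s * ((x 5 s * x 7 s') * x 7 (s ^ 2)) := by rw [xr_add, add_comm, ← xr_add]; group
      _ = _ := by rw [h6]; group
  rw [e] at h3
  have h6 : x 5 s * x 7 (s ^ 2) ∈ M := by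
    have := mul_mem (inv_mem hm) h3
    rwa [inv_mul_cancel_left] at this
  have h7 := nU4 R G h1
  have h8 := mul_mem (mul_mem h7 h6) (inv_mem h7)
  have h9 := conj_two R G (i := 1) (by decide) (s := 5) (by decide) s
  have h10 := conj_two R G (i := 1) (by decide) (s := 7) (by decide) (s ^ 2)
  have r1 : chevB2.simple 1 = 4 := by decide +kernel
  have r2 : chevB2.reflectRoot 1 5 = 6 := by decide +kernel
  have r3 : chevB2.reflectRoot 1 7 = 7 := by decide +kernel
  rw [r1, r2] at h9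
  rw [r1, r3] at h10
  have e2 : nU R (elemOfGood G K) 4 1 * (x 5 s * x 7 (s ^ 2)) * (nU R (elemOfGood G K) 4 1)⁻¹ =
    (nU R (elemOfGood G K) 4 1 * x 5 s * (nU R (elemOfGood G K) 4 1)⁻¹) * (nU R (elemOfGood G K) 4 1 * x 7 (s ^ 2) * (nU R (elemOfGood G K) 4 1)⁻¹) := by group
  rw [e2, h9, h10] at h8
  exact h8

include h1 in
theorem EE.c4 {s s' r r' : K} (h : EE R G (M := M) s s') (h' : EE R G (M := M) r r') : EE R G (M := M) (s * r') (s ^ 2 * r') := by
  have hm : x 6 s * x 7 s' ∈ M := h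
  have hm' : x 6 r * x 7 r' ∈ M := h'
  have g1 : x 5 s * x 7 s' ∈ M := by
    have h7 := nU4 R G h1
    have h8 := mul_mem (mul_mem h7 hm) (inv_mem h7)
    have h9 := conj_two R G (i := 1) (by decide) (s := 6) (by decide) s
    have h10 := conj_two R G (i := 1) (by decide) (s := 7) (by decide) s'
    have r1 : chevB2.simple 1 = 4 := by decide +kernel
    have r2 : chevB2.reflectRoot 1 6 = 5 := by decide +kernel
    have r3 : chevB2.reflectRoot 1 7 = 7 := by decide +kernel
    rw [r1, r2] at h9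
    rw [r1, r3] at h10
    have e : nU R (elemOfGood G K) 4 1 * (x 6 s * x 7 s') * (nU R (elemOfGood G K) 4 1)⁻¹ =
      (nU R (elemOfGood G K) 4 1 * x 6 s * (nU R (elemOfGood G K) 4 1)⁻¹) * (nU R (elemOfGood G K) 4 1 * x 7 s' * (nU R (elemOfGood G K) 4 1)⁻¹) := by group
    rw [e, h9, h10] at h8
    exact h8
  have g2 : x 6 r * x 4 r' ∈ M := by
    have h7 := nU5 R G h1
    have h8 := mul_mem (mul_mem h7 hm') (inv_mem h7)
    have h9 := conj_two R G (i := 0) (by decide) (s := 6) (by decide) r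
    have h10 := conj_two R G (i := 0) (by decide) (s := 7) (by decide) r'
    have r1 : chevB2.simple 0 = 5 := by decide +kernel
    have r2 : chevB2.reflectRoot 0 6 = 6 := by decide +kernel
    have r3 : chevB2.reflectRoot 0 7 = 4 := by decide +kernel
    rw [r1, r2] at h9
    rw [r1, r3] at h10
    have e : nU R (elemOfGood G K) 5 1 * (x 6 r * x 7 r') * (nU R (elemOfGood G K) 5 1)⁻¹ =
      (nU R (elemOfGood G K) 5 1 * x 6 r * (nU R (elemOfGood G K) 5 1)⁻¹) * (nU R (elemOfGood G K) 5 1 * x 7 r' * (nU R (elemOfGood G K) 5 1)⁻¹) := by group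
    rw [e, h9, h10] at h8
    exact h8
  have h3 := mul_mem (mul_mem (inv_mem g2) g1) g2
  have e : (x 6 r * x 4 r')⁻¹ * (x 5 s * x 7 s') * (x 6 r * x 4 r') = x 5 s * x 7 s' * (x 6 (s * r') * x 7 (s ^ 2 * r')) := by
    have a1 := b2_65 R G r s
    have a2 := b2_67 R G r s'
    have a3 := b2_45 R G r' s
    have a4 := b2_47 R G r' s'
    have a5 := comm_of_cj (b2_67 R G (s * r') s')
    have m1 : r' * s = s * r' := mul_comm _ _
    have m2 : r' * s ^ 2 = s ^ 2 * r' := mul_comm _ _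
    rw [m1, m2] at a3
    calc (x 6 r * x 4 r')⁻¹ * (x 5 s * x 7 s') * (x 6 r * x 4 r')
        = (x 4 r')⁻¹ * (((x 6 r)⁻¹ * x 5 s * x 6 r) * ((x 6 r)⁻¹ * x 7 s' * x 6 r)) * x 4 r' := by group
      _ = ((x 4 r')⁻¹ * x 5 s * x 4 r') * ((x 4 r')⁻¹ * x 7 s' * x 4 r') := by rw [a1, a2]; group
      _ = x 5 s * x 6 (s * r') * (x 7 (s ^ 2 * r') * x 7 s') := by rw [a3, a4]; group
      _ = x 5 s * (x 6 (s * r') * x 7 s') * x 7 (s ^ 2 * r') := by rw [xr_add, add_comm, ← xr_add]; group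
      _ = _ := by rw [a5]; group
  rw [e] at h3
  have := mul_mem (inv_mem g1) h3
  rw [inv_mul_cancel_left] at this
  exact this

/-- the projection -/
def AP : AddSubgroup K where
  carrier := {s | EE R G (M := M) s (s ^ 2)}
  zero_mem' := by
    show x 6 0 * x 7 (0 ^ 2) ∈ M
    have : (0 : K) ^ 2 = 0 := by ring
    rw [this, xr_zero, xr_zero, mul_one]; exact one_mem _
  add_mem' {a b} ha hb := by
    have := EE.add R G ha hb
    have e : a ^ 2 + b ^ 2 = (a + b) ^ 2 := by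
      have : (2 : K) = 0 := CharTwo.two_eq_zero
      linear_combination (-(a * b)) * this
    rw [e] at this
    exact this
  neg_mem' {a} ha := by rw [CharTwo.neg_eq]; exact ha

theorem AP_finite [Finite ↥M] : Finite (AP R G (M := M)) := by
  apply Finite.of_injective (fun t : AP R G (M := M) => (⟨x 6 t.1 * x 7 (t.1 ^ 2), t.2⟩ : ↥M))
  intro a b h
  have h2 : x 6 a.1 * x 7 (a.1 ^ 2) = x 6 b.1 * x 7 (b.1 ^ 2) := congrArg Subtype.val h
  have hh : R.half = 4 := by have := R.n_eq; have h3 : chevB2.nroots = 8 := by decide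
                             omega
  exact Subtype.ext (eq_of_mul_eq R.tab (elemOfGood G K) (k := 6) (by show R.half ≤ 6; omega) (by decide)
    (xr_V R G (by omega) (by omega) (by decide) _) (xr_V R G (by omega) (by omega) (by decide) _) h2).1

include h1 in
theorem EE.key {s s' : K} (h : EE R G (M := M) s s') : s ∈ AP R G (M := M) ∧ s' ∈ AP R G (M := M) ∧ s' + s ^ 2 ∈ AS R G M 7 := by
  have h2 : (2 : K) = 0 := CharTwo.two_eq_zero
  have a1 := EE.c2 R G h1 h
  have a2 := EE.c3 R G h1 h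
  have a3 := EE.c3 R G h1 a1
  refine ⟨a2, a3, ?_⟩
  have := EE.add R G h a2
  have e : s + s = 0 := by linear_combination s * h2
  rw [e] at this
  have a4 : x 6 0 * x 7 (s' + s ^ 2) ∈ M := this
  rw [xr_zero, one_mul] at a4
  exact a4

include h1 in
theorem AP_mul [Finite ↥M] : ∀ s ∈ AP R G (M := M), ∀ t ∈ AP R G (M := M), s * t ∈ AP R G (M := M) ∧
      s ^ 2 * t + (s * t) ^ 2 ∈ AS R G M 7 := by
  have : Fact (Nat.Prime 2) := ⟨Nat.prime_two⟩
  have hfin : Finite (AP R G (M := M)) := AP_finite R G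
  have hsq : ∀ t ∈ AP R G (M := M), t ^ 2 ∈ AP R G (M := M) := fun t ht => (EE.key R G h1 (s := t) (s' := t ^ 2) ht).2.1
  have hsurj := pow_surj 2 (AP R G (M := M)) hsq
  intro s hs t ht
  obtain ⟨u, hu, rfl⟩ := hsurj t ht
  have := EE.c4 R G h1 (s := s) (s' := s ^ 2) (r := u) (r' := u ^ 2) hs hu
  have h3 := EE.key R G h1 this
  exact ⟨h3.1, h3.2.2⟩

include h1 in
theorem AP_le [Finite ↥M] : ∀ y ∈ AP R G (M := M), y ∈ AS R G M 7 := by
  have : Fact (Nat.Prime 2) := ⟨Nat.prime_two⟩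
  have hfin : Finite (AP R G (M := M)) := AP_finite R G
  have hsq : ∀ t ∈ AP R G (M := M), t ^ 2 ∈ AP R G (M := M) := fun t ht => (EE.key R G h1 (s := t) (s' := t ^ 2) ht).2.1
  have hsurj := pow_surj 2 (AP R G (M := M)) hsq
  have hone : (1 : K) ∈ AP R G (M := M) := by
    refine (EE.key R G h1 (s := 1) (s' := 0) ?_).1
    show x 6 1 * x 7 0 ∈ M
    rw [xr_zero, mul_one]; exact h1 6 (by decide)
  obtain ⟨𝔽, hf, hF⟩ := exists_subfield (AP R G (M := M)) hone (fun t ht u hu => (AP_mul R G h1 t ht u hu).1)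
  intro y hy
  by_cases hex : ∃ t ∈ AP R G (M := M), t + t ^ 2 ≠ 0
  · obtain ⟨t, ht, ht0⟩ := hex
    have h3 : y / (t + t ^ 2) ∈ AP R G (M := M) := by
      rw [← hF]
      exact div_mem ((hF y).2 hy) (add_mem ((hF t).2 ht) (pow_mem ((hF t).2 ht) 2))
    obtain ⟨s, hs, hs2⟩ := hsurj _ h3
    have h4 := (AP_mul R G h1 s hs t ht).2
    have e : s ^ 2 * t + (s * t) ^ 2 = y := by
      have : s ^ 2 * t + (s * t) ^ 2 = s ^ 2 * (t + t ^ 2) := by ring
      rw [this, hs2, div_mul_cancel₀ _ ht0]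
    rwa [e] at h4
  · have h3 : y + y ^ 2 = 0 := by
      by_contra hne
      exact hex ⟨y, hy, hne⟩
    have h4 : y * (1 + y) = 0 := by linear_combination h3
    rcases mul_eq_zero.1 h4 with h5 | h5
    · rw [h5]; exact zero_mem _
    · have : y = 1 := by
        have h6 : y = -1 := by linear_combination h5
        rw [h6, CharTwo.neg_eq]
      rw [this]; exact h1 7 (by decide)

include h1 in
theorem uni_B2_two [Finite ↥M] : Uni R G M := by
  have B := bf_of_chk R G M bchk_B2 h1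
  have hAS : ∀ y ∈ AS R G M 6, y ∈ AP R G (M := M) := by
    intro y hy
    refine (EE.key R G h1 (s := y) (s' := 0) ?_).1
    show x 6 y * x 7 0 ∈ M
    rw [xr_zero, mul_one]; exact hy
  refine B.uni_two R G h1 ?_
  intro t ht u hu
  exact B.le _ (AP_le R G h1 _ (AP_mul R G h1 t (hAS t ht) u (hAS u hu)).1)

end two

end Cfsg.Agent.ChevM
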