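import Cfsg.Agent.ChevM.AStep

set_option autoImplicit false
set_option linter.unusedSectionVars false
set_option linter.unusedVariables false

/-!
# The root groups of a finite overgroup: all types except `G₂` and `B₂` in characteristic two (helper19)
-/

namespace Cfsg.Agent.ChevM

open Cfsg.Lie Matrix Subgroup Cfsg.Agent.ChevU Cfsg.Agent.Chev

variable {D : ChevalleyDatum} {K : Type*} [Field K] (R : RootFacts D) (G : Chev.Good D) (E : ChevGrp.DData D)
variable (M : Subgroup (GL D.Idx K))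

variable {M} in
theorem nU_of_one (h1 : ∀ s < D.nroots, xr R (elemOfGood G K) s 1 ∈ M) : ∀ i < D.rank, nU R (elemOfGood G K) (D.simple i) 1 ∈ M := by
  intro i hi
  rw [nU_eq, inv_one]
  refine mul_mem (mul_mem (h1 _ (R.simple_lt i hi)) ?_) (h1 _ (R.simple_lt i hi))
  rw [← xr_inv]
  exact inv_mem (h1 _ (R.neg_lt (R.simple_lt i hi)))

/-- check for simply laced types -/
def schk (D : ChevalleyDatum) (r s m : ℕ) : Bool :=
  tchk D (List.range D.nroots) (D.nroots - 1) && decide (r < D.nroots) && decide (s < D.nroots) && decide (m < D.nroots) &&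
    decide (s ≠ r) && decide (s ≠ D.neg r) && decide (D.commTerms r s = [(m, 1, 1, 1)])

theorem uni_sl {r s m : ℕ} (h : schk D r s m = true) [Finite ↥M] (h1 : ∀ s < D.nroots, xr R (elemOfGood G K) s 1 ∈ M) : Uni R G M := by
  unfold schk at h
  simp only [Bool.and_eq_true, decide_eq_true_eq] at h
  obtain ⟨⟨⟨⟨⟨⟨h2, h3⟩, h4⟩, h5⟩, h6⟩, h7⟩, h8⟩ := h
  have hA : ∀ s < D.nroots, AS R G M s = AS R G M (D.nroots - 1) := fun s hs =>
    AS_top R G M (nU_of_one R G h1) h2 s (List.mem_range.2 hs)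
  exact uni_of R G M _ hA (by omega) (h1 _ (by omega)) (mul_closed R G M h3 h4 h6 h7 h8 (Or.inl rfl) (hA _ h3) (hA _ h4) (hA _ h5))

/-- check for the types with double bonds -/
def bchk (D : ChevalleyDatum) (L1 L2 : List ℕ) (T1 T2 l s s' l' : ℕ) : Bool :=
  tchk D L1 T1 && tchk D L2 T2 && ((List.range D.nroots).all fun r => L1.contains r || L2.contains r) && L1.contains l && L1.contains l' &&
    L2.contains s && L2.contains s' && L1.contains T1 && L2.contains T2 && decide (s ≠ l) && decide (s ≠ D.neg l) &&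
    decide (D.commTerms l s = [(s', 1, 1, 1), (l', -1, 1, 2)])

structure BF (M : Subgroup (GL D.Idx K)) (L1 L2 : List ℕ) (T1 T2 : ℕ) : Prop where
  top1 : ∀ r ∈ L1, AS R G M r = AS R G M T1
  top2 : ∀ r ∈ L2, AS R G M r = AS R G M T2
  cov : ∀ r < D.nroots, r ∈ L1 ∨ r ∈ L2
  le : ∀ t ∈ AS R G M T1, t ∈ AS R G M T2
  sq : ∀ t ∈ AS R G M T2, t ^ 2 ∈ AS R G M T1
  lt1 : ∀ r ∈ L1, r < D.nroots
  lt2 : ∀ r ∈ L2, r < D.nroots
  m1 : T1 ∈ L1
  m2 : T2 ∈ L2

theorem bf_of_chk {L1 L2 : List ℕ} {T1 T2 l s s' l' : ℕ} (h : bchk D L1 L2 T1 T2 l s s' l' = true)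
    (h1 : ∀ s < D.nroots, xr R (elemOfGood G K) s 1 ∈ M) : BF R G M L1 L2 T1 T2 := by
  unfold bchk at h
  rw [Bool.and_eq_true, Bool.and_eq_true, Bool.and_eq_true, Bool.and_eq_true, Bool.and_eq_true, Bool.and_eq_true, Bool.and_eq_true,
    Bool.and_eq_true, Bool.and_eq_true, Bool.and_eq_true, Bool.and_eq_true] at h
  obtain ⟨⟨⟨⟨⟨⟨⟨⟨⟨⟨⟨h2, h3⟩, h4⟩, h5⟩, h6⟩, h7⟩, h8⟩, h9⟩, h10⟩, h11⟩, h12⟩, h13⟩ := h
  rw [List.contains_iff_mem] at h5 h6 h7 h8 h9 h10
  rw [decide_eq_true_eq] at h11 h12 h13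
  rw [List.all_eq_true] at h4
  have lt1 : ∀ r ∈ L1, r < D.nroots := by
    unfold tchk at h2
    rw [List.all_eq_true] at h2
    intro r hr
    have := h2 r hr
    rw [Bool.and_eq_true, decide_eq_true_eq] at this
    exact this.1
  have lt2 : ∀ r ∈ L2, r < D.nroots := by
    unfold tchk at h3
    rw [List.all_eq_true] at h3
    intro r hr
    have := h3 r hr
    rw [Bool.and_eq_true, decide_eq_true_eq] at this
    exact this.1
  have top1 := AS_top R G M (nU_of_one R G h1) h2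
  have top2 := AS_top R G M (nU_of_one R G h1) h3
  have key : ∀ t ∈ AS R G M T1, ∀ u ∈ AS R G M T2, xr R (elemOfGood G K) s' (-(t * u)) * xr R (elemOfGood G K) l' (t * u ^ 2) ∈ M := by
    intro t ht u hu
    have h14 := comm_mem R G M (lt1 _ h5) (lt2 _ h7) h11 h12 h13 (t := t) (u := u) (by rw [top1 l h5]; exact ht) (by rw [top2 s h7]; exact hu)
    simp only [List.map_cons, List.map_nil, List.prod_cons, List.prod_nil, mul_one, pow_one] at h14
    have e1 : ((1 : ℤ) : K) * -t * u = -(t * u) := by push_cast; ring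
    have e2 : ((-1 : ℤ) : K) * -t * u ^ 2 = t * u ^ 2 := by push_cast; ring
    rwa [e1, e2] at h14
  have hT1 : (1 : K) ∈ AS R G M T1 := h1 _ (lt1 _ h9)
  have hT2 : (1 : K) ∈ AS R G M T2 := h1 _ (lt2 _ h10)
  have le : ∀ t ∈ AS R G M T1, t ∈ AS R G M T2 := by
    intro t ht
    have h14 := key t ht 1 hT2
    rw [one_pow, mul_one] at h14
    have h15 : xr R (elemOfGood G K) l' t ∈ M := by rw [← mem_AS R G M, top1 _ h6]; exact ht
    have h16 : xr R (elemOfGood G K) s' (-t) ∈ M := by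
      have := mul_mem h14 (inv_mem h15)
      rwa [mul_inv_cancel_right] at this
    rw [← mem_AS R G M, top2 _ h8, neg_mem_iff] at h16
    exact h16
  refine ⟨top1, top2, ?_, le, ?_, lt1, lt2, h9, h10⟩
  · intro r hr
    have := h4 r (List.mem_range.2 hr)
    rw [Bool.or_eq_true, List.contains_iff_mem, List.contains_iff_mem] at this
    exact this
  · intro u hu
    have h14 := key 1 hT1 u hu
    rw [one_mul, one_mul] at h14
    have h15 : xr R (elemOfGood G K) s' (-u) ∈ M := by rw [← mem_AS R G M, top2 _ h8]; exact neg_mem hu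
    have h16 : xr R (elemOfGood G K) l' (u ^ 2) ∈ M := by
      have := mul_mem (inv_mem h15) h14
      rwa [inv_mul_cancel_left] at this
    rw [← mem_AS R G M, top1 _ h6] at h16
    exact h16

theorem half_mem (p : ℕ) [Fact p.Prime] [CharP K p] (hp : p ≠ 2) (A : AddSubgroup K) {u : K} (h : u + u ∈ A) : u ∈ A := by
  have hodd : p % 2 = 1 := (Nat.Prime.eq_two_or_odd (Fact.out : p.Prime)).resolve_left hp
  have h1 : ((p + 1) / 2) • (u + u) ∈ A := AddSubgroup.nsmul_mem A h _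
  have h2 : ((p + 1) / 2) • (u + u) = u := by
    rw [nsmul_eq_mul]
    have h3 : (((p + 1) / 2 : ℕ) : K) * 2 = 1 := by
      have : (p + 1) / 2 * 2 = p + 1 := by omega
      have h4 := congrArg (Nat.cast (R := K)) this
      push_cast at h4
      rw [CharP.cast_eq_zero K p, zero_add] at h4
      exact_mod_cast h4
    linear_combination u * h3
  rwa [h2] at h1

variable {M}

theorem BF.uni_odd {L1 L2 : List ℕ} {T1 T2 : ℕ} (B : BF R G M L1 L2 T1 T2) (p : ℕ) [Fact p.Prime] [CharP K p] (hp : p ≠ 2) [Finite ↥M]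
    (h1 : ∀ s < D.nroots, xr R (elemOfGood G K) s 1 ∈ M) : Uni R G M := by
  have hT1 : (1 : K) ∈ AS R G M T1 := h1 _ (B.lt1 _ B.m1)
  have hT2 : (1 : K) ∈ AS R G M T2 := h1 _ (B.lt2 _ B.m2)
  have hle : ∀ u ∈ AS R G M T2, u ∈ AS R G M T1 := by
    intro u hu
    apply half_mem p hp
    have h2 := B.sq _ (add_mem hu hT2)
    have h3 := B.sq _ hu
    have : u + u = (u + 1) ^ 2 - u ^ 2 - 1 := by ring
    rw [this]
    exact sub_mem (sub_mem h2 h3) hT1
  have he : AS R G M T2 = AS R G M T1 := le_antisymm hle B.le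
  refine uni_of R G M (AS R G M T1) ?_ (by have := B.lt1 _ B.m1; omega) hT1 ?_
  · intro s hs
    rcases B.cov s hs with h | h
    · exact B.top1 s h
    · rw [B.top2 s h, he]
  · intro t ht u hu
    apply half_mem p hp
    have h2 := B.sq _ (B.le _ (add_mem ht hu))
    have h3 := B.sq _ (B.le _ hu)
    have h4 := B.sq _ (B.le _ ht)
    have : t * u + t * u = (t + u) ^ 2 - t ^ 2 - u ^ 2 := by ring
    rw [this]
    exact sub_mem (sub_mem h2 h4) h3

theorem BF.uni_two {L1 L2 : List ℕ} {T1 T2 : ℕ} (B : BF R G M L1 L2 T1 T2) [CharP K 2] [Finite ↥M]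
    (h1 : ∀ s < D.nroots, xr R (elemOfGood G K) s 1 ∈ M) (hmul : ∀ t ∈ AS R G M T2, ∀ u ∈ AS R G M T2, t * u ∈ AS R G M T2) :
    Uni R G M := by
  have : Fact (Nat.Prime 2) := ⟨Nat.prime_two⟩
  have hT2 : (1 : K) ∈ AS R G M T2 := h1 _ (B.lt2 _ B.m2)
  have hfin : Finite (AS R G M T2) := AS_finite R G M (B.lt2 _ B.m2)
  have hle : ∀ u ∈ AS R G M T2, u ∈ AS R G M T1 := by
    intro u hu
    obtain ⟨v, hv, rfl⟩ := pow_surj 2 (AS R G M T2) (fun t ht => B.le _ (B.sq _ ht)) u hu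
    exact B.sq _ hv
  have he : AS R G M T1 = AS R G M T2 := le_antisymm B.le hle
  refine uni_of R G M (AS R G M T2) ?_ (by have := B.lt2 _ B.m2; omega) hT2 hmul
  intro s hs
  rcases B.cov s hs with h | h
  · rw [B.top1 s h, he]
  · exact B.top2 s h

end Cfsg.Agent.ChevM
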