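import Cfsg.Agent.ChevM.UniBF

set_option autoImplicit false
set_option linter.unusedSectionVars false

namespace Cfsg.Agent.ChevM

open Cfsg.Lie Cfsg.Agent.ChevU Cfsg.Agent.Chev Matrix

theorem schk_D4 : schk chevD4 12 14 15 = true := by decide +kernel
theorem schk_E6 : schk chevE6 36 37 38 = true := by decide +kernel
theorem schk_E7 : schk chevE7 63 64 65 = true := by decide +kernel
theorem schk_E8 : schk chevE8 120 121 122 = true := by decide +kernel
theorem bchk_B2 : bchk chevB2 [0, 3, 4, 7] [1, 2, 5, 6] 7 6 4 5 6 7 = true := by decide +kernel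
theorem bchk_F4 : bchk chevF4 [0, 1, 2, 4, 5, 6, 15, 16, 17, 21, 22, 23, 24, 25, 26, 30, 31, 32, 41, 42, 43, 45, 46, 47]
  [3, 7, 8, 9, 10, 11, 12, 13, 14, 18, 19, 20, 27, 28, 29, 33, 34, 35, 36, 37, 38, 39, 40, 44] 47 44 25 27 28 30 = true := by decide +kernel

variable {K : Type*} [Field K]

theorem uni_F4 (R : RootFacts chevF4) (G : Chev.Good chevF4) (M : Subgroup (GL chevF4.Idx K)) [Finite ↥M] (p : ℕ) [hp : Fact p.Prime] [CharP K p]
    (h1 : ∀ s < chevF4.nroots, xr R (elemOfGood G K) s 1 ∈ M) : Uni R G M := by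
  have B := bf_of_chk R G M bchk_F4 h1
  by_cases hp2 : p = 2
  · subst hp2
    refine B.uni_two R G h1 ?_
    exact mul_closed R G M (r := 27) (s := 33) (m := 34) (c := 1) (by decide) (by decide) (by decide) (by decide +kernel) (by decide +kernel)
      (Or.inl rfl) (B.top2 _ (by decide)) (B.top2 _ (by decide)) (B.top2 _ (by decide))
  · exact B.uni_odd R G p hp2 h1

end Cfsg.Agent.ChevM
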