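import Cfsg.Agent.ChevM.UniB2

set_option autoImplicit false
set_option linter.unusedSectionVars false
set_option linter.unusedVariables false

/-!
# The root groups of a finite overgroup: `G₂` (helper19)
-/

namespace Cfsg.Agent.ChevM

open Cfsg.Lie Matrix Subgroup Cfsg.Agent.ChevU Cfsg.Agent.Chev

theorem tchk_G2l : tchk chevG2 [0, 1, 5, 6, 10, 11] 11 = true := by decide +kernel
theorem tchk_G2s : tchk chevG2 [2, 3, 4, 7, 8, 9] 9 = true := by decide +kernel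

variable {K : Type*} [Field K] (R : RootFacts chevG2) (G : Chev.Good chevG2) {M : Subgroup (GL chevG2.Idx K)}

local notation "x" => xr R (elemOfGood G K)

variable (h1 : ∀ s < chevG2.nroots, xr R (elemOfGood G K) s 1 ∈ M)

include h1 in
theorem g2_l : ∀ r ∈ [0, 1, 5, 6, 10, 11], AS R G M r = AS R G M 11 := AS_top R G M (nU_of_one R G h1) tchk_G2l
include h1 in
theorem g2_s : ∀ r ∈ [2, 3, 4, 7, 8, 9], AS R G M r = AS R G M 9 := AS_top R G M (nU_of_one R G h1) tchk_G2s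

include h1 in
theorem g2_mul : ∀ t ∈ AS R G M 11, ∀ u ∈ AS R G M 11, t * u ∈ AS R G M 11 :=
  mul_closed R G M (r := 6) (s := 10) (m := 11) (c := 1) (by decide) (by decide) (by decide) (by decide +kernel) (by decide +kernel)
    (Or.inl rfl) (g2_l R G h1 _ (by decide)) (g2_l R G h1 _ (by decide)) rfl

include h1 in
theorem g2_67 {t u : K} (ht : t ∈ AS R G M 11) (hu : u ∈ AS R G M 9) :
    x 8 (-(t * u)) * (x 9 (-(t * u ^ 2)) * (x 10 (t * u ^ 3) * x 11 (-(2 * (t ^ 2 * u ^ 3))))) ∈ M := by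
  have h2 := comm_mem R G M (r := 6) (s := 7) (T := [(8, 1, 1, 1), (9, 1, 1, 2), (10, -1, 1, 3), (11, -2, 2, 3)]) (by decide) (by decide)
    (by decide) (by decide +kernel) (by decide +kernel) (t := t) (u := u) (by rw [g2_l R G h1 6 (by decide)]; exact ht)
    (by rw [g2_s R G h1 7 (by decide)]; exact hu)
  simp only [List.map_cons, List.map_nil, List.prod_cons, List.prod_nil, mul_one, pow_one] at h2
  have e1 : ((1 : ℤ) : K) * -t * u = -(t * u) := by push_cast; ring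
  have e2 : ((1 : ℤ) : K) * -t * u ^ 2 = -(t * u ^ 2) := by push_cast; ring
  have e3 : ((-1 : ℤ) : K) * -t * u ^ 3 = t * u ^ 3 := by push_cast; ring
  have e4 : ((-2 : ℤ) : K) * (-t) ^ 2 * u ^ 3 = -(2 * (t ^ 2 * u ^ 3)) := by push_cast; ring
  rwa [e1, e2, e3, e4] at h2

theorem g2_109 (t u : K) : x 10 t * x 9 u = x 9 u * x 10 t := by
  apply comm_of_cj
  rw [cj R G (r := 10) (s := 9) (T := []) (by decide) (by decide) (by decide) (by decide +kernel) (by decide +kernel)]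
  simp
theorem g2_119 (t u : K) : x 11 t * x 9 u = x 9 u * x 11 t := by
  apply comm_of_cj
  rw [cj R G (r := 11) (s := 9) (T := []) (by decide) (by decide) (by decide) (by decide +kernel) (by decide +kernel)]
  simp
theorem g2_59 (t u : K) : (x 5 t)⁻¹ * x 9 u * x 5 t = x 9 u := by
  rw [cj R G (r := 5) (s := 9) (T := []) (by decide) (by decide) (by decide) (by decide +kernel) (by decide +kernel)]
  simp
theorem g2_611 (t u : K) : (x 6 t)⁻¹ * x 11 u * x 6 t = x 11 u := by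
  rw [cj R G (r := 6) (s := 11) (T := []) (by decide) (by decide) (by decide) (by decide +kernel) (by decide +kernel)]
  simp
theorem g2_610 (t u : K) : (x 6 t)⁻¹ * x 10 u * x 6 t = x 10 u * x 11 (-(t * u)) := by
  rw [cj R G (r := 6) (s := 10) (T := [(11, 1, 1, 1)]) (by decide) (by decide) (by decide) (by decide +kernel) (by decide +kernel)]
  simp
theorem g2_79 (t u : K) : (x 7 t)⁻¹ * x 9 u * x 7 t = x 9 u * x 10 (-(3 * (t * u))) := by
  rw [cj R G (r := 7) (s := 9) (T := [(10, 3, 1, 1)]) (by decide) (by decide) (by decide) (by decide +kernel) (by decide +kernel)]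
  simp only [List.map_cons, List.map_nil, List.prod_cons, List.prod_nil, mul_one, pow_one]
  congr 2
  push_cast; ring
theorem g2_78 (t u : K) : (x 7 t)⁻¹ * x 8 u * x 7 t = x 8 u * (x 9 (2 * (t * u)) * (x 10 (-(3 * (t ^ 2 * u))) * x 11 (-(3 * (t * u ^ 2))))) := by
  rw [cj R G (r := 7) (s := 8) (T := [(9, -2, 1, 1), (10, -3, 2, 1), (11, 3, 1, 2)]) (by decide) (by decide) (by decide) (by decide +kernel) (by decide +kernel)]
  simp only [List.map_cons, List.map_nil, List.prod_cons, List.prod_nil, mul_one, pow_one]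
  have e1 : ((-2 : ℤ) : K) * -t * u = 2 * (t * u) := by push_cast; ring
  have e2 : ((-3 : ℤ) : K) * (-t) ^ 2 * u = -(3 * (t ^ 2 * u)) := by push_cast; ring
  have e3 : ((3 : ℤ) : K) * -t * u ^ 2 = -(3 * (t * u ^ 2)) := by push_cast; ring
  rw [e1, e2, e3]

include h1 in
/-- long inside short, odd characteristic -/
theorem g2_le_odd (p : ℕ) [Fact p.Prime] [CharP K p] (hp : p ≠ 2) [Finite ↥M] : ∀ t ∈ AS R G M 11, t ∈ AS R G M 9 := by
  intro t ht
  obtain ⟨𝔽, -, hF⟩ := @exists_subfield K _ (AS R G M 11) (AS_finite R G M (by decide)) (h1 11 (by decide)) (g2_mul R G h1)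
  have htF := (hF t).2 ht
  have h10 : ∀ y : K, y ∈ 𝔽 → x 10 y ∈ M := fun y hy => by
    rw [← mem_AS R G M, g2_l R G h1 10 (by decide)]; exact (hF y).1 hy
  have h11 : ∀ y : K, y ∈ 𝔽 → x 11 y ∈ M := fun y hy => (hF y).1 hy
  have m3 : (3 : K) ∈ 𝔽 := by exact_mod_cast natCast_mem 𝔽 3
  have m2 : (2 : K) ∈ 𝔽 := by exact_mod_cast natCast_mem 𝔽 2
  have h2 := g2_67 R G h1 ht (h1 9 (by decide) : (1 : K) ∈ AS R G M 9)
  simp only [mul_one, one_pow] at h2
  have hg : x 8 (-t) * x 9 (-t) ∈ M := by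
    have h3 := mul_mem (h10 t htF) (h11 _ (neg_mem (mul_mem m2 (pow_mem htF 2))))
    have h4 := mul_mem h2 (inv_mem h3)
    have e : x 8 (-t) * (x 9 (-t) * (x 10 t * x 11 (-(2 * t ^ 2)))) * (x 10 t * x 11 (-(2 * t ^ 2)))⁻¹ = x 8 (-t) * x 9 (-t) := by group
    rwa [e] at h4
  have h7 : x 7 1 ∈ M := h1 7 (by decide)
  have h8 := mul_mem (mul_mem (inv_mem h7) hg) h7
  have e : (x 7 1)⁻¹ * (x 8 (-t) * x 9 (-t)) * x 7 1 = x 8 (-t) * x 9 (-t) * x 9 (-(t + t)) * (x 10 (3 * t) * x 11 (-(3 * t ^ 2)) * x 10 (3 * t)) := by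
    have a1 := g2_78 R G 1 (-t)
    have a2 := g2_79 R G 1 (-t)
    have e1 : (2 * (1 * -t) : K) = -(t + t) := by ring
    have e2 : (-(3 * (1 ^ 2 * -t)) : K) = 3 * t := by ring
    have e3 : (-(3 * (1 * (-t) ^ 2)) : K) = -(3 * t ^ 2) := by ring
    have e4 : (-(3 * (1 * -t)) : K) = 3 * t := by ring
    rw [e1, e2, e3] at a1
    rw [e4] at a2
    have c1 := g2_109 R G (3 * t) (-t)
    have c2 := g2_119 R G (-(3 * t ^ 2)) (-t)
    have c3 : x 9 (-(t + t)) * x 9 (-t) = x 9 (-t) * x 9 (-(t + t)) := by rw [xr_add, xr_add, add_comm]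
    calc (x 7 1)⁻¹ * (x 8 (-t) * x 9 (-t)) * x 7 1 = ((x 7 1)⁻¹ * x 8 (-t) * x 7 1) * ((x 7 1)⁻¹ * x 9 (-t) * x 7 1) := by group
      _ = x 8 (-t) * x 9 (-(t + t)) * x 10 (3 * t) * (x 11 (-(3 * t ^ 2)) * x 9 (-t)) * x 10 (3 * t) := by rw [a1, a2]; group
      _ = x 8 (-t) * x 9 (-(t + t)) * (x 10 (3 * t) * x 9 (-t)) * x 11 (-(3 * t ^ 2)) * x 10 (3 * t) := by rw [c2]; group
      _ = x 8 (-t) * (x 9 (-(t + t)) * x 9 (-t)) * (x 10 (3 * t) * x 11 (-(3 * t ^ 2)) * x 10 (3 * t)) := by rw [c1]; group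
      _ = _ := by rw [c3]; group
  rw [e] at h8
  have h9 : x 10 (3 * t) * x 11 (-(3 * t ^ 2)) * x 10 (3 * t) ∈ M :=
    mul_mem (mul_mem (h10 _ (mul_mem m3 htF)) (h11 _ (neg_mem (mul_mem m3 (pow_mem htF 2))))) (h10 _ (mul_mem m3 htF))
  have h12 := mul_mem (mul_mem (inv_mem hg) h8) (inv_mem h9)
  have e2 : (x 8 (-t) * x 9 (-t))⁻¹ * (x 8 (-t) * x 9 (-t) * x 9 (-(t + t)) * (x 10 (3 * t) * x 11 (-(3 * t ^ 2)) * x 10 (3 * t))) *
      (x 10 (3 * t) * x 11 (-(3 * t ^ 2)) * x 10 (3 * t))⁻¹ = x 9 (-(t + t)) := by group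
  rw [e2] at h12
  apply half_mem p hp
  have h13 : -(t + t) ∈ AS R G M 9 := h12
  rwa [neg_mem_iff] at h13

include h1 in
/-- short inside long, characteristic not three -/
theorem g2_ge (p : ℕ) [hp' : Fact p.Prime] [CharP K p] (hp : p ≠ 3) [Finite ↥M] : ∀ t ∈ AS R G M 9, t ∈ AS R G M 11 := by
  intro t ht
  obtain ⟨𝔽, -, hF⟩ := @exists_subfield K _ (AS R G M 11) (AS_finite R G M (by decide)) (h1 11 (by decide)) (g2_mul R G h1)
  have m3 : (3 : K) ∈ 𝔽 := by exact_mod_cast natCast_mem 𝔽 3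
  have h30 : (3 : K) ≠ 0 := by
    intro h
    have h3 : ((3 : ℕ) : K) = 0 := by exact_mod_cast h
    rw [CharP.cast_eq_zero_iff K p] at h3
    exact hp ((Nat.prime_dvd_prime_iff_eq hp'.out Nat.prime_three).1 h3)
  have h2 := comm_mem R G M (r := 7) (s := 9) (T := [(10, 3, 1, 1)]) (by decide) (by decide)
    (by decide) (by decide +kernel) (by decide +kernel) (t := t) (u := 1) (by rw [g2_s R G h1 7 (by decide)]; exact ht)
    (h1 9 (by decide))
  simp only [List.map_cons, List.map_nil, List.prod_cons, List.prod_nil, mul_one, pow_one] at h2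
  rw [← mem_AS R G M, g2_l R G h1 10 (by decide)] at h2
  have h3 := (hF _).2 h2
  have h4 : t = -(3⁻¹ * (((3 : ℤ) : K) * -t)) := by push_cast; field_simp
  rw [← hF, h4]
  exact neg_mem (mul_mem (inv_mem m3) h3)

theorem three_zero [CharP K 3] : (3 : K) = 0 := by
  have : ((3 : ℕ) : K) = 0 := CharP.cast_eq_zero K 3
  exact_mod_cast this

include h1 in
theorem g2_three [CharP K 3] [Finite ↥M] : (∀ t ∈ AS R G M 9, t ∈ AS R G M 11) := by
  have : Fact (Nat.Prime 3) := ⟨Nat.prime_three⟩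
  have h30 : (3 : K) = 0 := three_zero
  have hmul : ∀ t ∈ AS R G M 9, ∀ u ∈ AS R G M 9, t * u ∈ AS R G M 9 := by
    intro t ht u hu
    have h2 := comm_mem R G M (r := 7) (s := 8) (T := [(9, -2, 1, 1), (10, -3, 2, 1), (11, 3, 1, 2)]) (by decide) (by decide)
      (by decide) (by decide +kernel) (by decide +kernel) (t := t) (u := u) (by rw [g2_s R G h1 7 (by decide)]; exact ht)
      (by rw [g2_s R G h1 8 (by decide)]; exact hu)
    simp only [List.map_cons, List.map_nil, List.prod_cons, List.prod_nil, mul_one, pow_one] at h2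
    have e1 : ((-2 : ℤ) : K) * -t * u = -(t * u) := by push_cast; linear_combination (t * u) * h30
    have e2 : ((-3 : ℤ) : K) * (-t) ^ 2 * u = 0 := by push_cast; linear_combination (-(t ^ 2 * u)) * h30
    have e3 : ((3 : ℤ) : K) * -t * u ^ 2 = 0 := by push_cast; linear_combination (-(t * u ^ 2)) * h30
    rw [e1, e2, e3, xr_zero, xr_zero, mul_one, mul_one] at h2
    have h3 : -(t * u) ∈ AS R G M 9 := h2
    rwa [neg_mem_iff] at h3
  have hfin : Finite (AS R G M 9) := AS_finite R G M (by decide)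
  have hcube : ∀ t ∈ AS R G M 9, t ^ 3 ∈ AS R G M 9 := by
    intro t ht
    have : t ^ 3 = t * (t * t) := by ring
    rw [this]; exact hmul t ht _ (hmul t ht t ht)
  intro y hy
  obtain ⟨u, hu, rfl⟩ := pow_surj 3 (AS R G M 9) hcube y hy
  have h2 := g2_67 R G h1 (h1 11 (by decide) : (1 : K) ∈ AS R G M 11) hu
  simp only [one_mul, one_pow] at h2
  have h3 : x 8 (-u) ∈ M := by rw [← mem_AS R G M, g2_s R G h1 8 (by decide)]; exact neg_mem hu
  have h4 : x 9 (-u ^ 2) ∈ M := by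
    rw [← mem_AS R G M, neg_mem_iff, pow_two]; exact hmul u hu u hu
  have h5 : x 10 (u ^ 3) * x 11 (-(2 * u ^ 3)) ∈ M := by
    have := mul_mem (inv_mem h4) (mul_mem (inv_mem h3) h2)
    rwa [inv_mul_cancel_left, inv_mul_cancel_left] at this
  have h6 : x 6 1 ∈ M := h1 6 (by decide)
  have h7 := mul_mem (mul_mem (inv_mem h6) h5) h6
  have e : (x 6 1)⁻¹ * (x 10 (u ^ 3) * x 11 (-(2 * u ^ 3))) * x 6 1 = x 10 (u ^ 3) * x 11 (-(2 * u ^ 3)) * x 11 (-(u ^ 3)) := by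
    have a1 := g2_610 R G 1 (u ^ 3)
    have a2 := g2_611 R G 1 (-(2 * u ^ 3))
    rw [one_mul] at a1
    have c3 : x 11 (-(u ^ 3)) * x 11 (-(2 * u ^ 3)) = x 11 (-(2 * u ^ 3)) * x 11 (-(u ^ 3)) := by rw [xr_add, xr_add, add_comm]
    calc (x 6 1)⁻¹ * (x 10 (u ^ 3) * x 11 (-(2 * u ^ 3))) * x 6 1
        = ((x 6 1)⁻¹ * x 10 (u ^ 3) * x 6 1) * ((x 6 1)⁻¹ * x 11 (-(2 * u ^ 3)) * x 6 1) := by group
      _ = x 10 (u ^ 3) * (x 11 (-(u ^ 3)) * x 11 (-(2 * u ^ 3))) := by rw [a1, a2]; group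
      _ = _ := by rw [c3]; group
  rw [e] at h7
  have h8 := mul_mem (inv_mem h5) h7
  rw [inv_mul_cancel_left] at h8
  have h9 : -(u ^ 3) ∈ AS R G M 11 := h8
  rwa [neg_mem_iff] at h9

include h1 in
theorem g2_two [CharP K 2] [Finite ↥M] : (∀ t ∈ AS R G M 11, t ∈ AS R G M 9) := by
  have h20 : (2 : K) = 0 := CharTwo.two_eq_zero
  obtain ⟨𝔽, -, hF⟩ := @exists_subfield K _ (AS R G M 11) (AS_finite R G M (by decide)) (h1 11 (by decide)) (g2_mul R G h1)
  have h10 : ∀ y : K, y ∈ 𝔽 → x 10 y ∈ M := fun y hy => by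
    rw [← mem_AS R G M, g2_l R G h1 10 (by decide)]; exact (hF y).1 hy
  have h11 : ∀ y : K, y ∈ 𝔽 → x 11 y ∈ M := fun y hy => (hF y).1 hy
  have h5 : ∀ y : K, y ∈ 𝔽 → x 5 y ∈ M := fun y hy => by
    rw [← mem_AS R G M, g2_l R G h1 5 (by decide)]; exact (hF y).1 hy
  have hg : ∀ t ∈ 𝔽, x 8 t * x 9 t ∈ M := by
    intro t ht
    have h2 := g2_67 R G h1 ((hF t).1 ht) (h1 9 (by decide) : (1 : K) ∈ AS R G M 9)
    simp only [mul_one, one_pow, CharTwo.neg_eq, h20, zero_mul, xr_zero] at h2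
    have := mul_mem h2 (inv_mem (h10 t ht))
    have e : x 8 t * (x 9 t * x 10 t) * (x 10 t)⁻¹ = x 8 t * x 9 t := by group
    rwa [e] at this
  have key : ∀ t ∈ 𝔽, ∀ w ∈ 𝔽, w * t + w * t ^ 2 ∈ AS R G M 9 := by
    intro t ht w hw
    have m1 : w * t ∈ 𝔽 := mul_mem hw ht
    have m2 : w * t ^ 2 ∈ 𝔽 := mul_mem hw (pow_mem ht 2)
    have m3 : w * t ^ 3 ∈ 𝔽 := mul_mem hw (pow_mem ht 3)
    have a58 : (x 5 w)⁻¹ * x 8 t * x 5 w = x 8 t * (x 7 (w * t) * (x 9 (w * t ^ 2) * x 11 (w * t ^ 3))) := by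
      rw [cj R G (r := 5) (s := 8) (T := [(7, 1, 1, 1), (9, -1, 1, 2), (11, 1, 1, 3), (10, 2, 2, 3)]) (by decide) (by decide) (by decide)
        (by decide +kernel) (by decide +kernel)]
      simp [CharTwo.neg_eq, h20, xr_zero]
    have a59 := g2_59 R G w t
    have a79 : (x 7 (w * t))⁻¹ * x 9 t * x 7 (w * t) = x 9 t * x 10 (w * t ^ 2) := by
      rw [g2_79 R G]
      congr 2
      rw [CharTwo.neg_eq]
      linear_combination (w * t * t) * h20
    have a79' : x 9 t * x 7 (w * t) = x 7 (w * t) * x 9 t * x 10 (w * t ^ 2) := by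
      calc x 9 t * x 7 (w * t) = x 7 (w * t) * ((x 7 (w * t))⁻¹ * x 9 t * x 7 (w * t)) := by group
        _ = _ := by rw [a79]; group
    have hinv : (x 9 t)⁻¹ = x 9 t := by rw [xr_inv, CharTwo.neg_eq]
    have c1 := g2_109 R G (w * t ^ 2) (w * t ^ 2)
    have c2 := g2_119 R G (w * t ^ 3) t
    have c3 := g2_109 R G (w * t ^ 2) t
    have h8 := mul_mem (inv_mem (hg t ht)) (mul_mem (mul_mem (inv_mem (h5 w hw)) (hg t ht)) (h5 w hw))
    have e : (x 8 t * x 9 t)⁻¹ * ((x 5 w)⁻¹ * (x 8 t * x 9 t) * x 5 w) = x 7 (w * t) * x 9 (w * t ^ 2) * (x 10 (w * t ^ 2) * x 11 (w * t ^ 3)) := by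
      calc (x 8 t * x 9 t)⁻¹ * ((x 5 w)⁻¹ * (x 8 t * x 9 t) * x 5 w)
          = (x 9 t)⁻¹ * (x 8 t)⁻¹ * (((x 5 w)⁻¹ * x 8 t * x 5 w) * ((x 5 w)⁻¹ * x 9 t * x 5 w)) := by group
        _ = (x 9 t)⁻¹ * x 7 (w * t) * x 9 (w * t ^ 2) * (x 11 (w * t ^ 3) * x 9 t) := by rw [a58, a59]; group
        _ = x 9 t * x 7 (w * t) * x 9 (w * t ^ 2) * (x 9 t * x 11 (w * t ^ 3)) := by rw [hinv, c2]
        _ = x 7 (w * t) * x 9 t * (x 10 (w * t ^ 2) * x 9 (w * t ^ 2)) * x 9 t * x 11 (w * t ^ 3) := by rw [a79']; group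
        _ = x 7 (w * t) * x 9 t * x 9 (w * t ^ 2) * (x 10 (w * t ^ 2) * x 9 t) * x 11 (w * t ^ 3) := by rw [c1]; group
        _ = x 7 (w * t) * (x 9 t * x 9 (w * t ^ 2) * x 9 t) * (x 10 (w * t ^ 2) * x 11 (w * t ^ 3)) := by rw [c3]; group
        _ = _ := by
          rw [xr_add, xr_add]
          have : t + w * t ^ 2 + t = w * t ^ 2 := by linear_combination t * h20
          rw [this]
    rw [e] at h8
    have h9 := mul_mem h8 (inv_mem (mul_mem (h10 _ m2) (h11 _ m3)))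
    rw [mul_inv_cancel_right] at h9
    -- conjugate with the reflection at `b`
    have hn : nU R (elemOfGood G K) 6 1 ∈ M := nU_of_one R G h1 1 (by decide)
    have h12 := mul_mem (mul_mem hn h9) (inv_mem hn)
    have r1 : chevG2.simple 1 = 6 := by decide +kernel
    have r2 : chevG2.reflectRoot 1 7 = 8 := by decide +kernel
    have r3 : chevG2.reflectRoot 1 9 = 9 := by decide +kernel
    have h13 := conj_two R G (i := 1) (by decide) (s := 7) (by decide) (w * t)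
    have h14 := conj_two R G (i := 1) (by decide) (s := 9) (by decide) (w * t ^ 2)
    rw [r1, r2] at h13
    rw [r1, r3] at h14
    have e2 : nU R (elemOfGood G K) 6 1 * (x 7 (w * t) * x 9 (w * t ^ 2)) * (nU R (elemOfGood G K) 6 1)⁻¹ =
      (nU R (elemOfGood G K) 6 1 * x 7 (w * t) * (nU R (elemOfGood G K) 6 1)⁻¹) * (nU R (elemOfGood G K) 6 1 * x 9 (w * t ^ 2) * (nU R (elemOfGood G K) 6 1)⁻¹) := by group
    rw [e2, h13, h14] at h12
    have h15 := mul_mem (inv_mem (hg _ m1)) h12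
    have e3 : (x 8 (w * t) * x 9 (w * t))⁻¹ * (x 8 (w * t) * x 9 (w * t ^ 2)) = x 9 (w * t + w * t ^ 2) := by
      calc (x 8 (w * t) * x 9 (w * t))⁻¹ * (x 8 (w * t) * x 9 (w * t ^ 2)) = (x 9 (w * t))⁻¹ * x 9 (w * t ^ 2) := by group
        _ = _ := by rw [xr_inv, CharTwo.neg_eq, xr_add]
    rw [e3] at h15
    exact h15
  intro y hy
  by_cases hex : ∃ t ∈ 𝔽, t + t ^ 2 ≠ 0
  · obtain ⟨t, ht, ht0⟩ := hex
    have h3 : y / (t + t ^ 2) ∈ 𝔽 := div_mem ((hF y).2 hy) (add_mem ht (pow_mem ht 2))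
    have h4 := key t ht _ h3
    have e : y / (t + t ^ 2) * t + y / (t + t ^ 2) * t ^ 2 = y := by
      rw [← mul_add, div_mul_cancel₀ _ ht0]
    rwa [e] at h4
  · have h3 : y + y ^ 2 = 0 := by
      by_contra hne
      exact hex ⟨y, (hF y).2 hy, hne⟩
    have h4 : y * (1 + y) = 0 := by linear_combination h3
    rcases mul_eq_zero.1 h4 with h5 | h5
    · rw [h5]; exact zero_mem _
    · have : y = 1 := by
        have h6 : y = -1 := by linear_combination h5
        rw [h6, CharTwo.neg_eq]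
      rw [this]; exact h1 9 (by decide)

include h1 in
theorem uni_G2 (p : ℕ) [Fact p.Prime] [CharP K p] [Finite ↥M] : Uni R G M := by
  have hle : ∀ t ∈ AS R G M 11, t ∈ AS R G M 9 := by
    by_cases hp : p = 2
    · subst hp; exact g2_two R G h1
    · exact g2_le_odd R G h1 p hp
  have hge : ∀ t ∈ AS R G M 9, t ∈ AS R G M 11 := by
    by_cases hp : p = 3
    · subst hp; exact g2_three R G h1
    · exact g2_ge R G h1 p hp
  have he : AS R G M 9 = AS R G M 11 := le_antisymm hge hle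
  refine uni_of R G M (AS R G M 11) ?_ (by decide) (h1 11 (by decide)) (g2_mul R G h1)
  intro s hs
  have h12 : s < 12 := hs
  by_cases h : s ∈ [0, 1, 5, 6, 10, 11]
  · exact g2_l R G h1 s h
  · have : s ∈ [2, 3, 4, 7, 8, 9] := by
      simp only [List.mem_cons, List.not_mem_nil, or_false] at h ⊢
      omega
    rw [g2_s R G h1 s this, he]

end Cfsg.Agent.ChevM
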